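import Cfsg.Agent.H21.Fpf
import Cfsg.Agent.H24.ClassTwo

/-! Groups of exponent `p` and class two with a fixed-point-free centre. -/

set_option autoImplicit false
open scoped commutatorElement

namespace Cfsg.Agent.H90.Avoid

variable {H : Type*} [Group H]

/-- `D` has exponent `p`, its commutators are powers of `z`, and its centre is generated by `z`. -/
structure IsTwo (p : ℕ) (z : H) (D : Subgroup H) : Prop where
  mem : z ∈ D
  comm_z : ∀ d ∈ D, d * z = z * d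
  exp : ∀ d ∈ D, d ^ p = 1
  comm : ∀ d ∈ D, ∀ e ∈ D, ⁅d, e⁆ ∈ Subgroup.zpowers z
  center : ∀ d ∈ D, (∀ e ∈ D, d * e = e * d) → d ∈ Subgroup.zpowers z

/-- The elements acting on `D` modulo `z`. -/
def Act (z : H) (D : Subgroup H) (x : H) : Prop :=
  x * z = z * x ∧ ∀ d ∈ D, ⁅x, d⁆ ∈ Subgroup.zpowers z

theorem commute_of_mem_zpowers {z x w : H} (hx : x * z = z * x) (hw : w ∈ Subgroup.zpowers z) :
    x * w = w * x := by
  obtain ⟨i, rfl⟩ := Subgroup.mem_zpowers_iff.mp hw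
  exact ((show Commute x z from hx).zpow_right i).eq

/-- Commutators with a fixed element are additive. -/
theorem comm_mul {z x y d : H} (hx : x * z = z * x) (hy : ⁅y, d⁆ ∈ Subgroup.zpowers z) :
    ⁅x * y, d⁆ = ⁅y, d⁆ * ⁅x, d⁆ := by
  rw [show ⁅x * y, d⁆ = x * ⁅y, d⁆ * x⁻¹ * ⁅x, d⁆ by simp only [commutatorElement_def]; group,
    commute_of_mem_zpowers hx hy, mul_inv_cancel_right]

theorem comm_pow {z x d : H} (hx : x * z = z * x) (hd : ⁅x, d⁆ ∈ Subgroup.zpowers z) :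
    ∀ n : ℕ, ⁅x ^ n, d⁆ = ⁅x, d⁆ ^ n := by
  intro n
  induction n with
  | zero => simp
  | succ n ih => rw [pow_succ, comm_mul (z := z) (by
      exact ((show Commute x z from hx).pow_left n).eq) hd, ih, ← pow_succ']

variable [Finite H] {p : ℕ} [hp : Fact p.Prime] {z : H}

omit [Finite H] in
theorem zpow_eq_natPow (hz : z ^ p = 1) {w : H} (hw : w ∈ Subgroup.zpowers z) :
    ∃ i : ℕ, i < p ∧ w = z ^ i := by
  obtain ⟨i, rfl⟩ := Subgroup.mem_zpowers_iff.mp hw
  have hpos : (0 : ℤ) < p := by exact_mod_cast hp.out.pos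
  refine ⟨(i % p).toNat, by
    have := Int.emod_lt_of_pos i hpos; have := Int.emod_nonneg i hpos.ne'; omega, ?_⟩
  conv_lhs => rw [← Int.emod_add_mul_ediv i p]
  rw [zpow_add, zpow_mul, zpow_natCast, hz, one_zpow, mul_one, ← zpow_natCast,
    Int.toNat_of_nonneg (Int.emod_nonneg _ hpos.ne')]

/-- A hyperbolic pair and its complement. -/
theorem IsTwo.split {D : Subgroup H} (h : IsTwo p z D) (hz1 : z ≠ 1) {a : H} (ha : a ∈ D)
    (haz : a ∉ Subgroup.zpowers z) :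
    ∃ y ∈ D, y * a * y⁻¹ = a * z ∧
      IsTwo p z (D ⊓ Subgroup.centralizer {a, y}) ∧
      Nat.card D = p * p * Nat.card (D ⊓ Subgroup.centralizer {a, y} : Subgroup H) ∧
      (∀ e ∈ D, ∃ α β : ℕ, α < p ∧ β < p ∧
        ∃ e1 ∈ D ⊓ Subgroup.centralizer {a, y}, e = a ^ α * y ^ β * e1) ∧
      ∀ x, Act z D x → ∃ d ∈ D, (d * x) * a = a * (d * x) ∧ (d * x) * y = y * (d * x) ∧
        Act z D (d * x) := by
  have hz : z ^ p = 1 := h.exp z h.mem
  have hoz : orderOf z = p := orderOf_eq_prime hz hz1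
  obtain ⟨e, he, hea⟩ : ∃ e ∈ D, ¬ a * e = e * a := by
    by_contra hcon
    simp only [not_exists, not_and, not_not] at hcon
    exact haz (h.center a ha hcon)
  have hc : ⁅e, a⁆ ≠ 1 := fun hc => hea (commutatorElement_eq_one_iff_mul_comm.mp hc).symm
  obtain ⟨i, -, hi⟩ := zpow_eq_natPow hz (h.comm e he a ha)
  obtain ⟨j, hj⟩ : z ∈ Submonoid.powers ⁅e, a⁆ := by
    rw [mem_powers_iff_mem_zpowers]
    have hle : Subgroup.zpowers ⁅e, a⁆ ≤ Subgroup.zpowers z :=
      Subgroup.zpowers_le.mpr (h.comm e he a ha)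
    have := Subgroup.eq_of_le_of_card_ge hle (by
      rw [Nat.card_zpowers, Nat.card_zpowers, hoz, orderOf_eq_prime (p := p) ?_ hc]
      rw [hi, ← pow_mul, mul_comm, pow_mul, hz, one_pow])
    rw [this]
    exact Subgroup.mem_zpowers z
  refine ⟨e ^ j, pow_mem he j, ?_⟩
  set y := e ^ j with hy
  have hyD : y ∈ D := pow_mem he j
  have hya : ⁅y, a⁆ = z := by
    rw [hy, comm_pow (h.comm_z e he) (h.comm e he a ha)]; exact hj
  have hay : ⁅a, y⁆ = z⁻¹ := by rw [← commutatorElement_inv, hya]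
  have hconj : y * a * y⁻¹ = a * z := by
    rw [h.comm_z a ha, ← hya, commutatorElement_def]; group
  set D1 := D ⊓ Subgroup.centralizer {a, y} with hD1
  have hD1mem : ∀ d, d ∈ D1 ↔ d ∈ D ∧ d * a = a * d ∧ d * y = y * d := fun d => by
    rw [hD1, Subgroup.mem_inf, Subgroup.mem_centralizer_iff]
    refine and_congr_right fun _ => ⟨fun hh => ⟨(hh a (by simp)).symm, (hh y (by simp)).symm⟩, ?_⟩
    rintro ⟨h1, h2⟩ w (rfl | rfl)
    exacts [h1.symm, h2.symm]
  have hpow_inv : ∀ k : ℕ, z ^ ((p - 1) * k) * z ^ k = 1 := fun k => by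
    rw [← pow_add, show (p - 1) * k + k = p * k by
      rw [← Nat.succ_mul, Nat.succ_eq_add_one, Nat.sub_add_cancel hp.out.one_le],
      pow_mul, hz, one_pow]
  -- adjusting an element
  have hadj : ∀ x, Act z D x → ∃ α β : ℕ, α < p ∧ β < p ∧
      (a ^ α * y ^ β * x) * a = a * (a ^ α * y ^ β * x) ∧
      (a ^ α * y ^ β * x) * y = y * (a ^ α * y ^ β * x) ∧ Act z D (a ^ α * y ^ β * x) := by
    intro x hx
    obtain ⟨u, -, hu⟩ := zpow_eq_natPow hz (hx.2 a ha)
    obtain ⟨v, -, hv⟩ := zpow_eq_natPow hz (hx.2 y hyD)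
    have hred : ∀ k : ℕ, z ^ k = z ^ (k % p) := fun k => by
      conv_lhs => rw [← Nat.mod_add_div k p, pow_add, pow_mul, hz, one_pow, mul_one]
    have hmz : ∀ k l : ℕ, a ^ k * y ^ l * z = z * (a ^ k * y ^ l) := fun k l =>
      h.comm_z _ (mul_mem (pow_mem ha k) (pow_mem hyD l))
    have hpre : ∀ d ∈ D, ∀ k l : ℕ, ⁅a ^ k * y ^ l * x, d⁆ = ⁅x, d⁆ * (⁅y, d⁆ ^ l * ⁅a, d⁆ ^ k) :=
      fun d hd k l => by
      rw [comm_mul (hmz k l) (hx.2 d hd),
        comm_mul (h.comm_z _ (pow_mem ha k)) (h.comm _ (pow_mem hyD l) d hd),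
        comm_pow (h.comm_z a ha) (h.comm a ha d hd), comm_pow (h.comm_z y hyD) (h.comm y hyD d hd)]
    refine ⟨v % p, ((p - 1) * u) % p, Nat.mod_lt _ hp.out.pos, Nat.mod_lt _ hp.out.pos, ?_, ?_,
      ⟨?_, fun d hd => ?_⟩⟩
    · rw [← commutatorElement_eq_one_iff_mul_comm, hpre a ha, hu, hya, commutatorElement_self,
        one_pow, mul_one, ← hred, ← pow_add, add_comm, pow_add, hpow_inv]
    · rw [← commutatorElement_eq_one_iff_mul_comm, hpre y hyD, hv, hay, commutatorElement_self,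
        one_pow, one_mul, inv_pow, ← hred, mul_inv_cancel]
    · rw [mul_assoc, hx.1, ← mul_assoc, hmz, mul_assoc]
    · rw [hpre d hd]
      exact mul_mem (hx.2 d hd) (mul_mem (pow_mem (h.comm y hyD d hd) _) (pow_mem (h.comm a ha d hd) _))
  have hact : ∀ d ∈ D, Act z D d := fun d hd => ⟨h.comm_z d hd, fun e he => h.comm d hd e he⟩
  have hdec : ∀ e ∈ D, ∃ α β : ℕ, α < p ∧ β < p ∧ ∃ e1 ∈ D1, e = a ^ α * y ^ β * e1 := by
    intro e he
    obtain ⟨α, β, hα, hβ, h1, h2, -⟩ := hadj e⁻¹ (hact _ (inv_mem he))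
    set A := a ^ α * y ^ β
    have hA : A ∈ D := mul_mem (pow_mem ha α) (pow_mem hyD β)
    have hm : A * e⁻¹ ∈ D1 := (hD1mem _).mpr ⟨mul_mem hA (inv_mem he), h1, h2⟩
    have hz1D : Subgroup.zpowers z ≤ D1 := Subgroup.zpowers_le.mpr
      ((hD1mem z).mpr ⟨h.mem, (h.comm_z a ha).symm, (h.comm_z y hyD).symm⟩)
    refine ⟨α, β, hα, hβ, ⁅A⁻¹, (A * e⁻¹)⁻¹⁆ * (A * e⁻¹)⁻¹,
      mul_mem (hz1D (h.comm _ (inv_mem hA) _ (inv_mem hm.1))) (inv_mem hm), ?_⟩
    change e = A * (⁅A⁻¹, (A * e⁻¹)⁻¹⁆ * (A * e⁻¹)⁻¹)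
    simp only [commutatorElement_def]
    group
  refine ⟨hconj, ⟨(hD1mem z).mpr ⟨h.mem, (h.comm_z a ha).symm, (h.comm_z y hyD).symm⟩,
    fun d hd => h.comm_z d hd.1, fun d hd => h.exp d hd.1,
    fun d hd e he => h.comm d hd.1 e he.1, fun d hd hcom => h.center d hd.1 fun e he => ?_⟩, ?_, hdec,
    fun x hx => ?_⟩
  · obtain ⟨α, β, -, -, h1, h2, -⟩ := hadj e (hact e he)
    have hmem : a ^ α * y ^ β * e ∈ D1 :=
      (hD1mem _).mpr ⟨mul_mem (mul_mem (pow_mem ha α) (pow_mem hyD β)) he, h1, h2⟩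
    obtain ⟨-, hda, hdy⟩ := (hD1mem d).mp hd
    have c1 : Commute d (a ^ α * y ^ β) :=
      ((show Commute d a from hda).pow_right α).mul_right ((show Commute d y from hdy).pow_right β)
    have c2 : Commute d (a ^ α * y ^ β * e) := hcom _ hmem
    have := c1.inv_right.mul_right c2
    rwa [inv_mul_cancel_left] at this
  · let f : Fin p × Fin p × D1 → D := fun t =>
      ⟨a ^ (t.1 : ℕ) * y ^ (t.2.1 : ℕ) * (t.2.2 : H),
        mul_mem (mul_mem (pow_mem ha _) (pow_mem hyD _)) t.2.2.2.1⟩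
    have hf : Function.Bijective f := by
      refine ⟨fun t t' e => ?_, fun d => ?_⟩
      · have key : ∀ s : Fin p × Fin p × D1,
            ⁅(f s : H), a⁆ = z ^ (s.2.1 : ℕ) ∧ ⁅(f s : H), y⁆ = (z ^ (s.1 : ℕ))⁻¹ := by
          intro s
          obtain ⟨hsD, hsa, hsy⟩ := (hD1mem _).mp s.2.2.2
          have hc : ∀ w ∈ D, (s.2.2 : H) * w = w * (s.2.2 : H) →
              ⁅(f s : H), w⁆ = ⁅y, w⁆ ^ (s.2.1 : ℕ) * ⁅a, w⁆ ^ (s.1 : ℕ) := fun w hw hsw => by
            change ⁅a ^ (s.1 : ℕ) * y ^ (s.2.1 : ℕ) * (s.2.2 : H), w⁆ = _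
            rw [comm_mul (h.comm_z _ (mul_mem (pow_mem ha _) (pow_mem hyD _))) (h.comm _ hsD w hw),
              commutatorElement_eq_one_iff_mul_comm.mpr hsw, one_mul,
              comm_mul (h.comm_z _ (pow_mem ha _)) (h.comm _ (pow_mem hyD _) w hw),
              comm_pow (h.comm_z a ha) (h.comm a ha w hw), comm_pow (h.comm_z y hyD) (h.comm y hyD w hw)]
          refine ⟨?_, ?_⟩
          · rw [hc a ha hsa, hya, commutatorElement_self, one_pow, mul_one]
          · rw [hc y hyD hsy, hay, commutatorElement_self, one_pow, one_mul, inv_pow]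
        have hinj : ∀ k l : Fin p, z ^ (k : ℕ) = z ^ (l : ℕ) → k = l := fun k l hkl =>
          Fin.ext (pow_injOn_Iio_orderOf (by rw [hoz]; exact k.2) (by rw [hoz]; exact l.2) hkl)
        have e' : (f t : H) = f t' := congrArg Subtype.val e
        have e1 : t.2.1 = t'.2.1 := hinj _ _ (by rw [← (key t).1, ← (key t').1, e'])
        have e2 : t.1 = t'.1 := hinj _ _ (inv_injective (by rw [← (key t).2, ← (key t').2, e']))
        obtain ⟨t1, t2, t3⟩ := t
        obtain ⟨t1', t2', t3'⟩ := t'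
        obtain rfl : t1 = t1' := e2
        obtain rfl : t2 = t2' := e1
        simp only [f] at e'
        obtain rfl : t3 = t3' := Subtype.ext (mul_left_cancel e')
        rfl
      · obtain ⟨α, β, hα, hβ, e1, he1, e⟩ := hdec d d.2
        exact ⟨(⟨α, hα⟩, ⟨β, hβ⟩, ⟨e1, he1⟩), Subtype.ext e.symm⟩
    rw [← Nat.card_congr (Equiv.ofBijective f hf), Nat.card_prod, Nat.card_prod, Nat.card_fin,
      mul_assoc]
  · obtain ⟨α, β, -, -, h1, h2, h3⟩ := hadj x hx
    exact ⟨_, mul_mem (pow_mem ha α) (pow_mem hyD β), h1, h2, h3⟩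

omit [Finite H] in
theorem IsTwo.zpowers_le {D : Subgroup H} (h : IsTwo p z D) : Subgroup.zpowers z ≤ D :=
  Subgroup.zpowers_le.mpr h.mem

/-- Automorphisms trivial on `D` modulo `z` are inner. -/
theorem exists_inner (hz1 : z ≠ 1) : ∀ (n : ℕ) (D : Subgroup H), Nat.card D = n → IsTwo p z D →
    ∀ x, Act z D x → ∃ d ∈ D, ∀ e ∈ D, (d * x) * e = e * (d * x) := by
  intro n
  induction n using Nat.strong_induction_on with
  | _ n ih =>
  intro D hn h x hx
  by_cases htriv : ∀ a ∈ D, a ∈ Subgroup.zpowers z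
  · exact ⟨1, one_mem D, fun e he => by rw [one_mul]; exact commute_of_mem_zpowers hx.1 (htriv e he)⟩
  simp only [not_forall] at htriv
  obtain ⟨a, ha, haz⟩ := htriv
  obtain ⟨y, hy, -, h1, hcard, hdec, hadj⟩ := h.split hz1 ha haz
  obtain ⟨d, hd, hda, hdy, hact⟩ := hadj x hx
  obtain ⟨d1, hd1, hcom⟩ := ih _ (by
      rw [← hn, hcard]
      exact lt_mul_of_one_lt_left Nat.card_pos (Nat.one_lt_mul_iff.mpr
        ⟨hp.out.pos, hp.out.pos, Or.inl hp.out.one_lt⟩)) _ rfl h1 (d * x)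
    ⟨hact.1, fun e he => hact.2 e he.1⟩
  refine ⟨d1 * d, mul_mem hd1.1 hd, fun e he => ?_⟩
  have c : ∀ w, w = a ∨ w = y → Commute (d1 * d * x) w := by
    intro w hw
    have c1 : Commute d1 w := by
      have := Subgroup.mem_centralizer_iff.mp hd1.2 w (by simpa using hw)
      exact this.symm
    have c2 : Commute (d * x) w := by
      rcases hw with rfl | rfl
      exacts [hda, hdy]
    rw [mul_assoc]
    exact c1.mul_left c2
  obtain ⟨α, β, -, -, e1, he1, rfl⟩ := hdec e he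
  have h2 : Commute (d1 * d * x) e1 := by
    have := hcom e1 he1
    rwa [← mul_assoc] at this
  exact ((((c a (Or.inl rfl)).pow_right α).mul_right ((c y (Or.inr rfl)).pow_right β)).mul_right h2).eq

end Cfsg.Agent.H90.Avoid
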