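import Cfsg.Agent.H90.Avoid.ClassTwo

/-! Modules for groups of exponent `p` and class two with fixed-point-free centre. -/

set_option autoImplicit false
open scoped commutatorElement

namespace Cfsg.Agent.H90.Avoid

variable {H : Type*} [Group H] {V : Type*} [CommGroup V] [MulDistribMulAction H V]

/-- The fixed points of an element. -/
def fix (g : H) : Subgroup V where
  carrier := {v | g • v = v}
  one_mem' := smul_one g
  mul_mem' := fun {a b} (ha : g • a = a) (hb : g • b = b) =>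
    show g • (a * b) = a * b by rw [smul_mul', ha, hb]
  inv_mem' := fun {a} (ha : g • a = a) => show g • a⁻¹ = a⁻¹ by rw [smul_inv', ha]

theorem mem_fix {g : H} {v : V} : v ∈ fix g ↔ g • v = v := Iff.rfl

theorem smul_eq_self_of_mem_zpowers {g h : H} {v : V} (hv : g • v = v)
    (hh : h ∈ Subgroup.zpowers g) : h • v = v := by
  have : h ∈ MulAction.stabilizer H v :=
    Subgroup.zpowers_le.mpr (MulAction.mem_stabilizer_iff.mpr hv) hh
  exact this

variable [Finite H] [Finite V] {p : ℕ} [hp : Fact p.Prime] {z : H}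

/-- Nontrivial powers of a fixed-point-free element of prime order are fixed-point-free. -/
theorem fpf_of_zpowers (hz : z ^ p = 1) (hzfix : ∀ v : V, z • v = v → v = 1) {c : H}
    (hc : c ∈ Subgroup.zpowers z) (hc1 : c ≠ 1) {v : V} (hv : c • v = v) : v = 1 := by
  have hz1 : z ≠ 1 := fun e => hc1 (by rwa [e, Subgroup.zpowers_one_eq_bot, Subgroup.mem_bot] at hc)
  refine hzfix v (smul_eq_self_of_mem_zpowers hv ?_)
  have hle : Subgroup.zpowers c ≤ Subgroup.zpowers z := Subgroup.zpowers_le.mpr hc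
  rw [Subgroup.eq_of_le_of_card_ge hle (by
    rw [Nat.card_zpowers, Nat.card_zpowers, orderOf_eq_prime hz hz1, orderOf_eq_prime (p := p) ?_ hc1]
    obtain ⟨i, rfl⟩ := Subgroup.mem_zpowers_iff.mp hc
    rw [← zpow_natCast, ← zpow_mul, mul_comm, zpow_mul, zpow_natCast, hz, one_zpow])]
  exact Subgroup.mem_zpowers z

/-- A module splits into the conjugate fixed spaces. -/
theorem card_eq_fix_pow {D : Subgroup H} (h : IsTwo p z D) (hzfix : ∀ v : V, z • v = v → v = 1)
    (hz1 : z ≠ 1) (hcop : (Nat.card V).Coprime p) (W : Subgroup V)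
    (hW : ∀ d ∈ D, ∀ w ∈ W, d • w ∈ W) {a y : H} (ha : a ∈ D) (hy : y ∈ D)
    (hconj : y * a * y⁻¹ = a * z) : Nat.card W = Nat.card (W ⊓ fix a : Subgroup V) ^ p := by
  have hz : z ^ p = 1 := h.exp z h.mem
  have hoz : orderOf z = p := orderOf_eq_prime hz hz1
  set W1 := W ⊓ (fix a : Subgroup V)
  have hconjn : ∀ i : ℕ, y ^ i * a = a * z ^ i * y ^ i := by
    intro i
    induction i with
    | zero => simp
    | succ i ih =>
      have hyz : y * z ^ i = z ^ i * y := ((show Commute y z from h.comm_z y hy).pow_right i).eq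
      rw [mul_inv_eq_iff_eq_mul] at hconj
      calc y ^ (i + 1) * a = y * (y ^ i * a) := by rw [pow_succ', mul_assoc]
        _ = y * a * (z ^ i * y ^ i) := by rw [ih]; simp [mul_assoc]
        _ = a * z * (y * z ^ i) * y ^ i := by rw [hconj]; simp [mul_assoc]
        _ = a * z * (z ^ i * y) * y ^ i := by rw [hyz]
        _ = a * z ^ (i + 1) * y ^ (i + 1) := by rw [pow_succ', pow_succ']; simp [mul_assoc]
  have hazp : ∀ i : ℕ, (a * z ^ i) ^ p = 1 := fun i =>
    h.exp _ (mul_mem ha (pow_mem h.mem i))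
  let e : ℕ → V →* V := fun i =>
    { toFun := fun v => ∏ k ∈ Finset.range p, (a * z ^ i) ^ k • v
      map_one' := Finset.prod_eq_one fun k _ => smul_one _
      map_mul' := fun u v => by simp only [smul_mul', Finset.prod_mul_distrib] }
  have he_fix : ∀ i v, (a * z ^ i) • e i v = e i v := fun i v => H21.smul_prod_powers (hazp i) v
  have he_mem : ∀ i, ∀ v ∈ W, e i v ∈ W := fun i v hv => by
    change ∏ k ∈ Finset.range p, (a * z ^ i) ^ k • v ∈ W
    exact prod_mem fun k _ => hW _ (pow_mem (mul_mem ha (pow_mem h.mem i)) k) v hv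
  have he_self : ∀ i v, (a * z ^ i) • v = v → e i v = v ^ p := fun i v hv => by
    change ∏ k ∈ Finset.range p, (a * z ^ i) ^ k • v = _
    rw [Finset.prod_congr rfl fun k _ =>
      smul_eq_self_of_mem_zpowers hv (pow_mem (Subgroup.mem_zpowers _) k), Finset.prod_const,
      Finset.card_range]
  have he_other : ∀ i j, i < p → j < p → i ≠ j → ∀ v, (a * z ^ i) • v = v → e j v = 1 := by
    intro i j hi hj hij v hv
    set c := (z ^ i)⁻¹ * z ^ j
    have hc1 : c ≠ 1 := fun e => hij (pow_injOn_Iio_orderOf (by rw [hoz]; exact hi)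
      (by rw [hoz]; exact hj) (inv_mul_eq_one.mp e))
    have hcz : c ∈ Subgroup.zpowers z :=
      mul_mem (inv_mem (pow_mem (Subgroup.mem_zpowers z) i)) (pow_mem (Subgroup.mem_zpowers z) j)
    have hcomm : Commute c (a * z ^ i) :=
      (commute_of_mem_zpowers (h.comm_z _ (mul_mem ha (pow_mem h.mem i))) hcz).symm
    have hji : a * z ^ j = c * (a * z ^ i) := by
      rw [hcomm.eq]; simp only [c, mul_assoc, mul_inv_cancel_left]
    change ∏ k ∈ Finset.range p, (a * z ^ j) ^ k • v = 1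
    rw [Finset.prod_congr rfl fun k _ => by
      rw [hji, hcomm.mul_pow, mul_smul,
        smul_eq_self_of_mem_zpowers hv (pow_mem (Subgroup.mem_zpowers _) k)]]
    refine H21.prod_powers_eq_one ?_ (fun w hw => fpf_of_zpowers hz hzfix hcz hc1 hw) v
    exact h.exp c (h.zpowers_le hcz)
  have hsum : ∀ v, ∏ i ∈ Finset.range p, e i v = v ^ p := by
    intro v
    change ∏ i ∈ Finset.range p, ∏ k ∈ Finset.range p, (a * z ^ i) ^ k • v = _
    rw [Finset.prod_comm, Finset.prod_eq_single 0]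
    · simp
    · intro k hk hk0
      have hzk : z ^ k ≠ 1 := fun e => hk0 (pow_injOn_Iio_orderOf (by rw [hoz]; exact Finset.mem_range.mp hk)
        (by rw [hoz]; exact hp.out.pos) (e.trans (pow_zero z).symm))
      rw [Finset.prod_congr rfl fun i _ => show (a * z ^ i) ^ k • v = a ^ k • ((z ^ k) ^ i • v) by
        rw [((show Commute a z from h.comm_z a ha).pow_right i).mul_pow, mul_smul, ← pow_mul,
          ← pow_mul, mul_comm i k], ← Finset.smul_prod', H21.prod_powers_eq_one ?_
          (fun w hw => fpf_of_zpowers hz hzfix (pow_mem (Subgroup.mem_zpowers z) k) hzk hw), smul_one]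
      rw [← pow_mul, mul_comm, pow_mul, hz, one_pow]
    · intro h0
      exact absurd (Finset.mem_range.mpr hp.out.pos) h0
  have hback : ∀ (i : ℕ) (v : V), (a * z ^ i) • v = v → a • ((y ^ i)⁻¹ • v) = (y ^ i)⁻¹ • v := fun i v hv => by
    rw [← mul_smul, show a * (y ^ i)⁻¹ = (y ^ i)⁻¹ * (a * z ^ i) by
      rw [eq_inv_mul_iff_mul_eq, ← mul_assoc, hconjn, mul_inv_cancel_right], mul_smul, hv]
  have hfwd : ∀ (i : ℕ) (v : V), a • v = v → (a * z ^ i) • (y ^ i • v) = y ^ i • v := fun i v hv => by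
    rw [← mul_smul, ← hconjn, mul_smul, hv]
  let f : W → (Fin p → W1) := fun w i =>
    ⟨(y ^ (i : ℕ))⁻¹ • e i w, hW _ (inv_mem (pow_mem hy _)) _ (he_mem _ _ w.2),
      hback _ _ (he_fix _ _)⟩
  let g : (Fin p → W1) → W := fun u =>
    ⟨∏ i : Fin p, y ^ (i : ℕ) • (u i : V), prod_mem fun i _ => hW _ (pow_mem hy _) _ (u i).2.1⟩
  have hfinj : Function.Injective f := by
    intro w w' hww
    refine Subtype.ext ((powCoprime (G := V) hcop).injective ?_)
    change (w : V) ^ p = (w' : V) ^ p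
    rw [← hsum, ← hsum]
    refine Finset.prod_congr rfl fun i hi => ?_
    have := congrArg Subtype.val (congrFun hww ⟨i, Finset.mem_range.mp hi⟩)
    exact MulAction.injective _ this
  have hginj : Function.Injective g := by
    intro u u' huu
    have hfg : ∀ u : Fin p → W1, ∀ i : Fin p,
        ((f (g u) i : W1) : V) = (u i : V) ^ p := by
      intro u i
      change (y ^ (i : ℕ))⁻¹ • e i (∏ j : Fin p, y ^ (j : ℕ) • (u j : V)) = _
      rw [map_prod, Finset.prod_eq_single i]
      · rw [he_self _ _ (hfwd _ _ (u i).2.2), ← smul_pow', inv_smul_smul]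
      · intro j _ hji
        exact he_other j i j.2 i.2 (fun e => hji (Fin.ext e)) _ (hfwd _ _ (u j).2.2)
      · simp
    funext i
    refine Subtype.ext ((powCoprime (G := V) hcop).injective ?_)
    change ((u i : W1) : V) ^ p = ((u' i : W1) : V) ^ p
    rw [← hfg, ← hfg, huu]
  rw [show Nat.card W1 ^ p = Nat.card (Fin p → W1) by rw [Nat.card_fun, Nat.card_fin]]
  exact le_antisymm (Nat.card_le_card_of_injective f hfinj) (Nat.card_le_card_of_injective g hginj)

/-- Lower bound for a module. -/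
theorem exists_bound (hzfix : ∀ v : V, z • v = v → v = 1) (hz1 : z ≠ 1)
    (hcop : (Nat.card V).Coprime p) :
    ∀ (n : ℕ) (D : Subgroup H) (W : Subgroup V), Nat.card D = n → IsTwo p z D →
      (∀ d ∈ D, ∀ w ∈ W, d • w ∈ W) → W ≠ ⊥ →
      ∃ m, Nat.card D = p ^ (2 * m + 1) ∧ (p + 1) ^ (p ^ m) ≤ Nat.card W := by
  intro n
  induction n using Nat.strong_induction_on with
  | _ n ih =>
  intro D W hn h hW hW0
  by_cases htriv : ∀ a ∈ D, a ∈ Subgroup.zpowers z
  · have hD : D = Subgroup.zpowers z := le_antisymm htriv h.zpowers_le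
    have hc : Nat.card D = p := by rw [hD, Nat.card_zpowers, orderOf_eq_prime (h.exp z h.mem) hz1]
    refine ⟨0, by rw [hc]; simp, ?_⟩
    rw [pow_zero, pow_one]
    letI : MulDistribMulAction D W :=
      { smul := fun d w => ⟨(d : H) • (w : V), hW d d.2 w w.2⟩
        one_smul := fun w => Subtype.ext (one_smul H (w : V))
        mul_smul := fun d e w => Subtype.ext (mul_smul (d : H) (e : H) (w : V))
        smul_mul := fun d v w => Subtype.ext (smul_mul' (d : H) (v : V) (w : V))
        smul_one := fun d => Subtype.ext (smul_one (d : H)) }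
    have hmod := H21.card_modEq_one (A := D) (V := W) (p := p)
      (IsPGroup.of_card (n := 1) (by rw [hc, pow_one]))
      fun w hw => Subtype.ext (hzfix _ (congrArg Subtype.val (hw ⟨z, h.mem⟩)))
    have h1 : 1 < Nat.card W :=
      Finite.one_lt_card_iff_nontrivial.mpr ((Subgroup.nontrivial_iff_ne_bot W).mpr hW0)
    by_contra hlt
    rw [not_le] at hlt
    obtain ⟨k, hk⟩ := (Nat.modEq_iff_dvd' h1.le).mp hmod.symm
    rcases k with _ | k
    · omega
    · rw [Nat.mul_succ] at hk
      omega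
  simp only [not_forall] at htriv
  obtain ⟨a, ha, haz⟩ := htriv
  obtain ⟨y, hy, hconj, h1, hcard, -, -⟩ := h.split hz1 ha haz
  have hsplit := card_eq_fix_pow h hzfix hz1 hcop W hW ha hy hconj
  have hW1 : W ⊓ (fix a : Subgroup V) ≠ ⊥ := fun e => by
    rw [e, Subgroup.card_bot, one_pow] at hsplit
    exact hW0 (Subgroup.card_eq_one.mp hsplit)
  obtain ⟨m, hm, hle⟩ := ih _ (by
      rw [← hn, hcard]
      exact lt_mul_of_one_lt_left Nat.card_pos (Nat.one_lt_mul_iff.mpr
        ⟨hp.out.pos, hp.out.pos, Or.inl hp.out.one_lt⟩)) _ (W ⊓ fix a) rfl h1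
    (fun d hd w hw => ⟨hW d hd.1 w hw.1, by
      change a • (d • w) = d • w
      rw [← mul_smul, Subgroup.mem_centralizer_iff.mp hd.2 a (Set.mem_insert _ _), mul_smul, hw.2]⟩) hW1
  refine ⟨m + 1, by rw [hcard, hm]; ring, ?_⟩
  rw [hsplit, pow_succ, pow_mul]
  exact Nat.pow_le_pow_left hle p

/-- The inequality behind the count. -/
theorem pow_le_bound {p m : ℕ} (hp : 3 ≤ p) :
    p ^ (2 * (m + 1) + 1) ≤ (p - 1) * (p + 1) ^ (p ^ m * (p - 1)) := by
  have hmain : ∀ m, ¬ (p = 3 ∧ m = 0) → p ≠ 4 → 2 * (m + 1) + 1 ≤ p ^ m * (p - 1) := by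
    intro m
    induction m with
    | zero => intro h h4; simp; omega
    | succ m ih =>
      intro _ h4
      rcases Nat.eq_zero_or_pos m with rfl | hm
      · simp only [zero_add, pow_one]
        have : 3 * 2 ≤ p * (p - 1) := Nat.mul_le_mul hp (by omega)
        omega
      · have h1 := ih (by omega) h4
        have h2 : 3 * (p ^ m * (p - 1)) ≤ p ^ (m + 1) * (p - 1) := by
          rw [pow_succ, mul_comm (p ^ m) p, mul_assoc]; exact Nat.mul_le_mul_right _ hp
        omega
  by_cases h : p = 3 ∧ m = 0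
  · obtain ⟨rfl, rfl⟩ := h; norm_num
  by_cases h4 : p = 4
  · subst h4
    have hexp : 2 * (m + 1) + 1 ≤ 4 ^ m * 3 := by
      induction m with
      | zero => norm_num
      | succ m ih => rw [pow_succ]; have := ih (fun e => by omega); omega
    calc 4 ^ (2 * (m + 1) + 1) ≤ 5 ^ (4 ^ m * 3) :=
          (Nat.pow_le_pow_right (by norm_num) hexp).trans (Nat.pow_le_pow_left (by norm_num) _)
      _ ≤ (4 - 1) * (4 + 1) ^ (4 ^ m * (4 - 1)) := Nat.le_mul_of_pos_left _ (by norm_num)
  calc p ^ (2 * (m + 1) + 1) ≤ p ^ (p ^ m * (p - 1)) := Nat.pow_le_pow_right (by omega) (hmain m h h4)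
    _ ≤ (p + 1) ^ (p ^ m * (p - 1)) := Nat.pow_le_pow_left (by omega) _
    _ ≤ _ := Nat.le_mul_of_pos_left _ (by omega)

/-- Some vector is moved by every non-central element. -/
theorem exists_moved {D : Subgroup H} (h : IsTwo p z D) (hp2 : p ≠ 2)
    (hzfix : ∀ v : V, z • v = v → v = 1) (hz1 : z ≠ 1) (hcop : (Nat.card V).Coprime p)
    [Nontrivial V] :
    ∃ v : V, v ≠ 1 ∧ ∀ a ∈ D, a ≠ 1 → a • v ≠ v := by
  classical
  have hp3 : 3 ≤ p := by have := hp.out.two_le; omega
  by_cases htriv : ∀ a ∈ D, a ∈ Subgroup.zpowers z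
  · obtain ⟨v, hv⟩ := exists_ne (1 : V)
    exact ⟨v, hv, fun a ha ha1 e => hv (fpf_of_zpowers (h.exp z h.mem) hzfix (htriv a ha) ha1 e)⟩
  simp only [not_forall] at htriv
  obtain ⟨a0, ha0, ha0z⟩ := htriv
  by_contra hcon
  simp only [not_exists, not_and, not_forall, not_not] at hcon
  obtain ⟨m, hm, -⟩ := exists_bound hzfix hz1 hcop _ D ⊤ rfl h (fun _ _ _ _ => Subgroup.mem_top _)
    top_ne_bot
  set n := Nat.card V with hn
  let ι := {a : H // a ∈ D ∧ a ∉ Subgroup.zpowers z}
  -- each element fixes few vectors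
  have hfix : ∀ a : ι, (Nat.card (fix a.1 : Subgroup V)) ^ p = n := by
    rintro ⟨a, ha, haz⟩
    obtain ⟨y, hy, hconj, -, -, -, -⟩ := h.split hz1 ha haz
    have := card_eq_fix_pow h hzfix hz1 hcop (⊤ : Subgroup V) (fun _ _ _ _ => Subgroup.mem_top _) ha hy hconj
    rw [top_inf_eq, Subgroup.card_top] at this
    exact this.symm
  haveI : Nonempty ι := ⟨⟨a0, ha0, ha0z⟩⟩
  obtain ⟨a1⟩ := (inferInstance : Nonempty ι)
  set c := Nat.card (fix a1.1 : Subgroup V) with hc
  have hceq : ∀ a : ι, Nat.card (fix a.1 : Subgroup V) = c := fun a =>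
    Nat.pow_left_injective hp.out.ne_zero ((hfix a).trans (hfix a1).symm)
  let X := Σ a : ι, {v : (fix a.1 : Subgroup V) // v ≠ 1}
  haveI : Finite X := Finite.instSigma
  have hX : Nat.card X = Nat.card ι * (c - 1) := by
    letI := Fintype.ofFinite ι
    rw [Nat.card_sigma, Finset.sum_congr rfl fun a _ => show Nat.card {v : (fix a.1 : Subgroup V) // v ≠ 1} = c - 1 by
      letI := Fintype.ofFinite (fix a.1 : Subgroup V)
      rw [Nat.card_eq_fintype_card, Fintype.card_subtype_compl, Fintype.card_subtype_eq,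
        ← Nat.card_eq_fintype_card, hceq a], Finset.sum_const, Finset.card_univ,
      ← Nat.card_eq_fintype_card, smul_eq_mul]
  -- each vector is fixed by at least `p - 1`
  let Y := {v : V // v ≠ 1} × Fin (p - 1)
  have hY : Nat.card Y = (n - 1) * (p - 1) := by
    letI := Fintype.ofFinite V
    rw [Nat.card_prod, Nat.card_fin, Nat.card_eq_fintype_card, Fintype.card_subtype_compl,
      Fintype.card_subtype_eq, ← Nat.card_eq_fintype_card]
  choose b hb hb1 hbv using fun v : {v : V // v ≠ 1} => hcon v.1 v.2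
  have hbz : ∀ v, b v ∉ Subgroup.zpowers z := fun v hmem =>
    v.2 (fpf_of_zpowers (h.exp z h.mem) hzfix hmem (hb1 v) (hbv v))
  have hbp : ∀ v, ∀ i : Fin (p - 1), b v ^ ((i : ℕ) + 1) ∉ Subgroup.zpowers z := by
    intro v i hmem
    have hco : ((i : ℕ) + 1).Coprime p := (Nat.coprime_comm.mp
      (hp.out.coprime_iff_not_dvd.mpr fun hd => by
        have := Nat.le_of_dvd (Nat.succ_pos _) hd; have := i.2; omega))
    obtain ⟨k, hk⟩ := exists_pow_eq_self_of_coprime
      (x := b v) (n := (i : ℕ) + 1) (by rw [orderOf_eq_prime (h.exp _ (hb v)) (hb1 v)]; exact hco)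
    exact hbz v (hk ▸ pow_mem hmem k)
  let F : Y → X := fun y => ⟨⟨b y.1 ^ ((y.2 : ℕ) + 1), pow_mem (hb y.1) _, hbp y.1 y.2⟩,
    ⟨⟨y.1, smul_eq_self_of_mem_zpowers (hbv y.1) (pow_mem (Subgroup.mem_zpowers _) _)⟩,
      fun e => y.1.2 (congrArg Subtype.val e)⟩⟩
  have hF : Function.Injective F := by
    rintro ⟨v, i⟩ ⟨w, j⟩ e
    have e1 : (v : V) = w := congrArg (fun x : X => (((x.2 : {u : (fix x.1.1 : Subgroup V) // u ≠ 1}).1 :
      (fix x.1.1 : Subgroup V)) : V)) e
    obtain rfl : v = w := Subtype.ext e1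
    have e2 : b v ^ ((i : ℕ) + 1) = b v ^ ((j : ℕ) + 1) := congrArg (fun x : X => x.1.1) e
    have hord := orderOf_eq_prime (h.exp _ (hb v)) (hb1 v)
    have hi := i.2
    have hj := j.2
    have := pow_injOn_Iio_orderOf (x := b v) (show (i : ℕ) + 1 < orderOf (b v) by omega)
      (show (j : ℕ) + 1 < orderOf (b v) by omega) e2
    exact Prod.ext rfl (Fin.ext (show (i : ℕ) = (j : ℕ) by omega))
  have hcount := Nat.card_le_card_of_injective F hF
  rw [hX, hY] at hcount
  have hι : Nat.card ι < p ^ (2 * m + 1) := by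
    rw [← hm]
    haveI := Fintype.ofFinite D
    haveI := Fintype.ofFinite ι
    rw [Nat.card_eq_fintype_card, Nat.card_eq_fintype_card]
    refine Fintype.card_lt_of_injective_of_notMem (fun a : ι => (⟨a.1, a.2.1⟩ : D))
      (fun x y e => Subtype.ext (congrArg Subtype.val e :)) (b := ⟨1, one_mem D⟩) ?_
    rintro ⟨a, e⟩
    exact a.2.2 ((congrArg Subtype.val e : a.1 = 1) ▸ one_mem _)
  have hm0 : m ≠ 0 := fun e => by
    rw [e, mul_zero, zero_add, pow_one] at hm
    have := Subgroup.eq_of_le_of_card_ge h.zpowers_le (by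
      rw [hm, Nat.card_zpowers, orderOf_eq_prime (h.exp z h.mem) hz1])
    exact ha0z (this ▸ ha0)
  obtain ⟨k, rfl⟩ : ∃ k, m = k + 1 := ⟨m - 1, by omega⟩
  -- lower bound on `c`
  have hck : (p + 1) ^ (p ^ k) ≤ c := by
    obtain ⟨m', hm', hle⟩ := exists_bound hzfix hz1 hcop _ D ⊤ rfl h
      (fun _ _ _ _ => Subgroup.mem_top _) top_ne_bot
    rw [hm] at hm'
    have : m' = k + 1 := by
      have := Nat.pow_right_injective hp.out.two_le hm'
      omega
    subst this
    rw [Subgroup.card_top, ← hn, ← hfix a1, pow_succ, pow_mul] at hle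
    exact (Nat.pow_le_pow_iff_left hp.out.ne_zero).mp hle
  have hc1 : 1 < c := lt_of_lt_of_le (Nat.one_lt_pow (by positivity) (by omega)) hck
  have hbound := pow_le_bound (m := k) hp3
  have h1 : p ^ (2 * (k + 1) + 1) ≤ (p - 1) * c ^ (p - 1) := hbound.trans
    (Nat.mul_le_mul_left _ (by rw [pow_mul]; exact Nat.pow_le_pow_left hck _))
  rw [← hfix a1] at hcount
  have h2 : c ^ (p - 1) * (c - 1) ≤ c ^ p - 1 := by
    obtain ⟨d, hd⟩ : ∃ d, c = d + 1 := ⟨c - 1, by omega⟩
    have hpos : 1 ≤ c ^ (p - 1) := Nat.one_le_pow _ _ (by omega)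
    rw [show c ^ p = c ^ (p - 1) * c by rw [← pow_succ, Nat.sub_add_cancel hp.out.one_le],
      hd, Nat.add_sub_cancel, Nat.mul_succ]
    rw [hd] at hpos
    omega
  have h3 : c ^ (p - 1) * (c - 1) * (p - 1) < (p - 1) * c ^ (p - 1) * (c - 1) :=
    lt_of_le_of_lt ((Nat.mul_le_mul_right _ h2).trans hcount)
      (lt_of_lt_of_le (Nat.mul_lt_mul_of_pos_right hι (by omega)) (Nat.mul_le_mul_right _ h1))
  rw [mul_comm, ← mul_assoc] at h3
  exact lt_irrefl _ h3

end Cfsg.Agent.H90.Avoid
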