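import Mathlib

/-! Regular orbits of `p`-groups of odd order on subsets. -/

set_option autoImplicit false

namespace Cfsg.Agent.H90.Avoid

universe u

open Equiv

/-- A permutation `p`-group, `p` odd, has a regular orbit on subsets. -/
theorem exists_regular_subset {p : ℕ} [Fact p.Prime] (hp2 : p ≠ 2) : ∀ (n : ℕ) (Ω : Type u) [Finite Ω],
    Nat.card Ω = n → ∀ Q : Subgroup (Perm Ω), IsPGroup p Q →
      ∃ S : Set Ω, ∀ g ∈ Q, (∀ x, x ∈ S → g x ∈ S) → g = 1 := by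
  intro n
  induction n using Nat.strong_induction_on with
  | _ n ih =>
  intro Ω _ hn Q hQ
  classical
  -- restriction to an invariant subset
  have hres : ∀ B : Set Ω, Nat.card B < n → ∀ M : Subgroup (Perm Ω), M ≤ Q →
      (∀ g ∈ M, ∀ x ∈ B, g x ∈ B) →
      ∃ S : Set Ω, S ⊆ B ∧ ∀ g ∈ M, (∀ x, x ∈ S → g x ∈ S) → ∀ x ∈ B, g x = x := by
    intro B hB M hMQ hM
    let res : M →* Perm B :=
      { toFun := fun g => (g : Perm Ω).subtypePerm fun x => ⟨fun h => by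
          simpa using hM _ (inv_mem g.2) _ h, hM _ g.2 x⟩
        map_one' := rfl
        map_mul' := fun u v => rfl }
    obtain ⟨S, hS⟩ := ih _ hB B rfl res.range ((hQ.to_le hMQ).of_surjective _
      res.rangeRestrict_surjective)
    refine ⟨Subtype.val '' S, by rintro _ ⟨x, -, rfl⟩; exact x.2, fun g hg h x hx => ?_⟩
    have h1 := hS (res ⟨g, hg⟩) ⟨_, rfl⟩ fun y hy => by
      obtain ⟨z, hz, e⟩ := h y ⟨y, hy, rfl⟩
      rwa [show res ⟨g, hg⟩ y = z from Subtype.ext e.symm]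
    exact congrArg Subtype.val (Equiv.congr_fun h1 ⟨x, hx⟩)
  by_cases hinv : ∃ O : Set Ω, O.Nonempty ∧ O ≠ Set.univ ∧ ∀ g ∈ Q, ∀ x ∈ O, g x ∈ O
  · obtain ⟨O, hO, hOne, hOinv⟩ := hinv
    have hOc : ∀ g ∈ Q, ∀ x ∈ Oᶜ, g x ∈ Oᶜ := fun g hg x hx h =>
      hx (by simpa using hOinv g⁻¹ (inv_mem hg) _ h)
    have hlt : ∀ B : Set Ω, B ≠ Set.univ → Nat.card B < n := fun B hB => by
      rw [← hn, Nat.card_coe_set_eq, ← Set.ncard_univ]
      exact Set.ncard_lt_ncard (Set.ssubset_univ_iff.mpr hB) (Set.toFinite _)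
    obtain ⟨S, hSO, hS⟩ := hres O (hlt O hOne) Q le_rfl hOinv
    obtain ⟨T, hTO, hT⟩ := hres Oᶜ (hlt _ fun e => hO.ne_empty (Set.compl_univ_iff.mp e)) Q le_rfl hOc
    refine ⟨S ∪ T, fun g hg h => Equiv.ext fun x => ?_⟩
    by_cases hx : x ∈ O
    · refine hS g hg (fun y hy => ?_) x hx
      exact (h y (Or.inl hy)).resolve_right fun hyT => hTO hyT (hOinv g hg y (hSO hy))
    · refine hT g hg (fun y hy => ?_) x hx
      exact (h y (Or.inr hy)).resolve_left fun hyS => hOc g hg y (hTO hy) (hSO hyS)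
  simp only [not_exists, not_and] at hinv
  rcases Nat.lt_or_ge n 2 with hsmall | hlarge
  · have : Subsingleton Ω := Finite.card_le_one_iff_subsingleton.mp (by omega)
    exact ⟨∅, fun g _ _ => Equiv.ext fun x => Subsingleton.elim _ _⟩
  haveI : Nontrivial Ω := Finite.one_lt_card_iff_nontrivial.mp (by omega)
  obtain ⟨b⟩ := (inferInstance : Nonempty Ω)
  have htrans : ∀ x, ∃ g : Q, (g : Perm Ω) b = x := by
    intro x
    by_contra hx
    refine hinv {y | ∃ g : Q, (g : Perm Ω) b = y} ⟨b, 1, rfl⟩ (fun e => hx (e.ge (Set.mem_univ x))) ?_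
    rintro g hg _ ⟨k, rfl⟩
    exact ⟨⟨g, hg⟩ * k, rfl⟩
  -- a maximal subgroup containing the stabiliser
  let St : Subgroup Q := MulAction.stabilizer Q b
  have hSt : St ≠ ⊤ := fun e => by
    obtain ⟨c, hc⟩ := exists_ne b
    obtain ⟨g, hg⟩ := htrans c
    have : g • b = b := (e ▸ Subgroup.mem_top g : g ∈ St)
    exact hc (hg.symm.trans this)
  obtain ⟨M, hMc, hStM⟩ := (eq_top_or_exists_le_coatom St).resolve_left hSt
  haveI : M.Normal := by
    haveI := hQ.isNilpotent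
    exact (Group.isNilpotent_of_finite_tfae.out 0 2 rfl rfl).mp inferInstance M hMc
  have hMmem : ∀ g : Q, ∀ m ∈ M, (g : Perm Ω) b = (m : Perm Ω) b → g ∈ M := by
    intro g m hm e
    have : m⁻¹ * g ∈ St := by
      refine MulAction.mem_stabilizer_iff.mpr ?_
      change ((m⁻¹ * g : Q) : Perm Ω) b = b
      rw [Subgroup.coe_mul, Subgroup.coe_inv, Perm.mul_apply, e, Perm.inv_def, Equiv.symm_apply_apply]
    simpa using M.mul_mem hm (hStM this)
  let blk : Q → Set Ω := fun g => {x | ∃ m ∈ M, (g : Perm Ω) ((m : Perm Ω) b) = x}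
  have hblk_inv : ∀ g : Q, ∀ m ∈ M, ∀ x ∈ blk g, (m : Perm Ω) x ∈ blk g := by
    rintro g m hm _ ⟨k, hk, rfl⟩
    refine ⟨g⁻¹ * m * g * k, M.mul_mem ?_ hk, by simp⟩
    simpa using (inferInstance : M.Normal).conj_mem m hm g⁻¹
  have hblk1 : blk 1 = {x | ∃ m ∈ M, (m : Perm Ω) b = x} := rfl
  set B := blk 1 with hB
  have hBlt : Nat.card B < n := by
    rw [← hn, Nat.card_coe_set_eq, ← Set.ncard_univ]
    refine Set.ncard_lt_ncard (Set.ssubset_univ_iff.mpr fun e => hMc.1 ?_) (Set.toFinite _)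
    rw [Subgroup.eq_top_iff']
    intro g
    obtain ⟨m, hm, hme⟩ := e.ge (Set.mem_univ ((g : Perm Ω) b))
    exact hMmem g m hm (by simpa using hme.symm)
  -- a regular subset of the first block, of less than half its size
  obtain ⟨T, hTB, hT, hT2⟩ : ∃ T : Set Ω, T ⊆ B ∧ (∀ m : Q, m ∈ M →
      (∀ x, x ∈ T → (m : Perm Ω) x ∈ T) → ∀ x ∈ B, (m : Perm Ω) x = x) ∧
      2 * T.ncard < B.ncard := by
    obtain ⟨T, hTB, hT⟩ := hres B hBlt (M.map Q.subtype) (Subgroup.map_subtype_le _) (by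
      rintro _ ⟨m, hm, rfl⟩ x hx
      exact hblk_inv 1 m hm x hx)
    have hT' : ∀ m : Q, m ∈ M → (∀ x, x ∈ T → (m : Perm Ω) x ∈ T) → ∀ x ∈ B, (m : Perm Ω) x = x :=
      fun m hm => hT m ⟨m, hm, rfl⟩
    have hodd : Odd B.ncard := by
      obtain ⟨k, hk⟩ := IsPGroup.card_orbit (hQ.to_subgroup M) b
      have hBe : B = MulAction.orbit M b := by
        ext x
        exact ⟨fun ⟨m, hm, e⟩ => ⟨⟨m, hm⟩, e⟩, fun ⟨⟨m, hm⟩, e⟩ => ⟨m, hm, e⟩⟩
      rw [hBe, ← Nat.card_coe_set_eq, hk]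
      exact ((Nat.Prime.odd_of_ne_two Fact.out hp2).pow)
    rcases Nat.lt_or_ge (2 * T.ncard) B.ncard with h | h
    · exact ⟨T, hTB, hT', h⟩
    refine ⟨B \ T, Set.diff_subset, fun m hm hx => hT' m hm fun x hxT => ?_, ?_⟩
    · by_contra hmx
      have hsub : (m : Perm Ω) '' (B \ T) ⊆ B \ T := by
        rintro _ ⟨y, hy, rfl⟩; exact hx y hy
      have heq := Set.eq_of_subset_of_ncard_le hsub
        (Set.ncard_image_of_injective _ (m : Perm Ω).injective).ge (Set.toFinite _)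
      obtain ⟨y, hy, e⟩ := heq.ge ⟨hblk_inv 1 m hm x (hTB hxT), hmx⟩
      exact hy.2 ((m : Perm Ω).injective e ▸ hxT)
    · rw [Set.ncard_diff hTB (Set.toFinite _)]
      obtain ⟨j, hj⟩ := hodd
      have := Set.ncard_le_ncard hTB (Set.toFinite _)
      omega
  -- coset representatives
  let rep : Q → Q := fun g => (QuotientGroup.mk g : Q ⧸ M).out
  have hrep : ∀ g : Q, g⁻¹ * rep g ∈ M := fun g => by
    rw [← QuotientGroup.eq]
    exact (QuotientGroup.out_eq' (QuotientGroup.mk g : Q ⧸ M)).symm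
  have hrepeq : ∀ g h : Q, g⁻¹ * h ∈ M → rep g = rep h := fun g h e => by
    simp only [rep, QuotientGroup.eq.mpr e]
  have hblk_eq : ∀ g h : Q, g⁻¹ * h ∈ M → blk g = blk h := by
    have key : ∀ g h : Q, g⁻¹ * h ∈ M → blk h ⊆ blk g := by
      rintro g h e _ ⟨m, hm, rfl⟩
      exact ⟨g⁻¹ * h * m, M.mul_mem e hm, by simp⟩
    exact fun g h e => Set.Subset.antisymm (key h g (by simpa using M.inv_mem e)) (key g h e)
  have hblk_dis : ∀ g h : Q, ∀ x, x ∈ blk g → x ∈ blk h → g⁻¹ * h ∈ M := by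
    rintro g h _ ⟨m, hm, rfl⟩ ⟨k, hk, e⟩
    have h1 : g⁻¹ * h * k ∈ M := hMmem _ m hm (by
      rw [Subgroup.coe_mul, Subgroup.coe_mul, Subgroup.coe_inv, Perm.mul_apply, Perm.mul_apply, e,
        Perm.inv_def, Equiv.symm_apply_apply])
    simpa using M.mul_mem h1 (M.inv_mem hk)
  let S : Set Ω := {x | (x ∈ T) ∨ ∃ g : Q, g ∉ M ∧ x ∈ blk g ∧ x ∉ (rep g : Perm Ω) '' T}
  refine ⟨S, fun g hg hS => ?_⟩
  have hSimg : (g : Perm Ω) '' S = S := Set.eq_of_subset_of_ncard_le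
    (by rintro _ ⟨x, hx, rfl⟩; exact hS x hx) (Set.ncard_image_of_injective _ g.injective).ge
    (Set.toFinite _)
  set g' : Q := ⟨g, hg⟩
  have himg : ∀ h : Q, (g : Perm Ω) '' blk h = blk (g' * h) := by
    intro h
    ext x
    constructor
    · rintro ⟨_, ⟨m, hm, rfl⟩, rfl⟩; exact ⟨m, hm, rfl⟩
    · rintro ⟨m, hm, rfl⟩; exact ⟨_, ⟨m, hm, rfl⟩, rfl⟩
  have hrepimg : ∀ h : Q, (rep h : Perm Ω) '' B = blk h := by
    intro h
    rw [hblk_eq h (rep h) (hrep h)]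
    ext x
    constructor
    · rintro ⟨_, ⟨m, hm, rfl⟩, rfl⟩; exact ⟨m, hm, rfl⟩
    · rintro ⟨m, hm, rfl⟩; exact ⟨_, ⟨m, hm, rfl⟩, rfl⟩
  have hS1 : S ∩ B = T := by
    ext x
    constructor
    · rintro ⟨hx | ⟨h, hh, hxh, -⟩, hxB⟩
      · exact hx
      · exact absurd (by simpa using hblk_dis 1 h x hxB hxh) hh
    · exact fun hx => ⟨Or.inl hx, hTB hx⟩
  have hSh : ∀ h : Q, h ∉ M → S ∩ blk h = blk h \ (rep h : Perm Ω) '' T := by
    intro h hh
    ext x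
    constructor
    · rintro ⟨hx | ⟨k, hk, hxk, hxk'⟩, hxh⟩
      · exact absurd (by simpa using hblk_dis 1 h x (hTB hx) hxh) hh
      · refine ⟨hxh, ?_⟩
        rwa [hrepeq h k (hblk_dis h k x hxh hxk)]
    · exact fun hx => ⟨Or.inr ⟨h, hh, hx.1, hx.2⟩, hx.1⟩
  have hgM : g' ∈ M := by
    by_contra hgM
    have h1 : (g : Perm Ω) '' (S ∩ B) = S ∩ blk g' := by
      rw [Set.image_inter g.injective, hSimg, hB, himg, mul_one]
    rw [hS1, hSh g' hgM] at h1
    have h2 := congrArg Set.ncard h1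
    rw [Set.ncard_image_of_injective _ g.injective,
      Set.ncard_diff (by rw [← hrepimg g']; exact Set.image_mono hTB) (Set.toFinite _),
      Set.ncard_image_of_injective _ (rep g' : Perm Ω).injective, ← hrepimg g',
      Set.ncard_image_of_injective _ (rep g' : Perm Ω).injective] at h2
    omega
  refine Equiv.ext fun x => ?_
  obtain ⟨h, rfl⟩ := htrans x
  by_cases hh : h ∈ M
  · refine hT g' hgM (fun y hy => ?_) _ ⟨h, hh, rfl⟩
    exact hS1.le ⟨hS y (Or.inl hy), hblk_inv 1 g' hgM y (hTB hy)⟩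
  set c := rep h with hc
  have hconj : c⁻¹ * g' * c ∈ M := by simpa using (inferInstance : M.Normal).conj_mem g' hgM c⁻¹
  have hfixT : ∀ y, y ∈ T → ((c⁻¹ * g' * c : Q) : Perm Ω) y ∈ T := by
    intro y hy
    have hy1 : (c : Perm Ω) y ∈ blk h := hrepimg h ▸ ⟨y, hTB hy, rfl⟩
    have hy2 : g ((c : Perm Ω) y) ∈ blk h := hblk_inv h g' hgM _ hy1
    have hy3 : g ((c : Perm Ω) y) ∈ (c : Perm Ω) '' T := by
      by_contra hno
      have hmem : g ((c : Perm Ω) y) ∈ S ∩ blk h := by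
        rw [hSh h hh]; exact ⟨hy2, hno⟩
      obtain ⟨z, hz, e⟩ := hSimg.ge hmem.1
      obtain rfl := g.injective e
      exact ((hSh h hh).le ⟨hz, hy1⟩).2 ⟨y, hy, rfl⟩
    obtain ⟨z, hz, e⟩ := hy3
    rwa [Subgroup.coe_mul, Subgroup.coe_mul, Subgroup.coe_inv, Perm.mul_apply, Perm.mul_apply,
      show (g' : Perm Ω) = g from rfl, ← e, Perm.inv_def, Equiv.symm_apply_apply]
  have hb' : (c⁻¹ : Q) * h ∈ M := by
    simpa using M.inv_mem (hrep h)
  have := hT _ hconj hfixT _ ⟨_, hb', rfl⟩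
  simpa using this

end Cfsg.Agent.H90.Avoid
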