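import Cfsg.Agent.H90.Avoid.Primitive
import Cfsg.Agent.H90.Avoid.Subset
import Cfsg.Agent.H21.Complement

/-! A vector moved by a whole conjugacy class of a normal `p`-subgroup, `p` odd. -/

set_option autoImplicit false

namespace Cfsg.Agent.H90.Avoid

universe v

variable {p : ℕ} [hp : Fact p.Prime]

/-- Some vector is fixed by no conjugate of a given element of a normal `p`-subgroup. -/
theorem exists_avoid (hp2 : p ≠ 2) : ∀ (n : ℕ) (V : Type v) [CommGroup V] [Finite V] (H : Type v)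
    [Group H] [Finite H] [MulDistribMulAction H V], Nat.card V = n → (Nat.card V).Coprime p →
    (∀ g : H, (∀ v : V, g • v = v) → g = 1) →
    (∀ U : Subgroup V, (∀ h : H, ∀ u ∈ U, h • u ∈ U) → U = ⊥ ∨ U = ⊤) →
    ∀ (P : Subgroup H), P.Normal → IsPGroup p P → ∀ a ∈ P, a ^ p = 1 → a ≠ 1 →
      ∃ v : V, ∀ h : H, (h * a * h⁻¹) • v ≠ v := by
  intro n
  induction n using Nat.strong_induction_on with
  | _ n ih =>
  intro V _ _ H _ _ _ hn hcop hfaith hirr P hPn hP a haP hap ha1
  classical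
  haveI := hPn
  haveI hVnt : Nontrivial V := not_subsingleton_iff_nontrivial.mp fun hs =>
    ha1 (hfaith a fun v => Subsingleton.elim _ _)
  have hne : P ≠ ⊥ := fun e => ha1 (Subgroup.mem_bot.mp (e ▸ haP))
  have hclass : ∀ h : H, h * a * h⁻¹ ∈ P ∧ (h * a * h⁻¹) ^ p = 1 ∧ h * a * h⁻¹ ≠ 1 := fun h =>
    ⟨hPn.conj_mem a haP h, by rw [conj_pow, hap, mul_one, mul_inv_cancel],
      fun e => ha1 (conj_eq_one_iff.mp e)⟩
  by_cases hel : ∀ N : Subgroup H, N ≤ P → N.Normal → (∀ a ∈ N, ∀ b ∈ N, a * b = b * a) →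
      (∀ a ∈ N, a ^ p = 1) → Nat.card N ≤ p
  · obtain ⟨v, hv⟩ := exists_moved_primitive hp2 hP hne hcop hfaith hirr hel
    exact ⟨v, fun h => hv _ (hclass h).1 (hclass h).2.1 (hclass h).2.2⟩
  simp only [not_forall] at hel
  obtain ⟨N, hNP, hNn, hNc, hNe, hNcard⟩ := hel
  haveI := hNn
  let fixK : Subgroup H → Subgroup V := fun K => ⨅ k ∈ K, fix k
  have hmemfix : ∀ K v, v ∈ fixK K ↔ ∀ k ∈ K, k • v = v := fun K v => by
    simp [fixK, Subgroup.mem_iInf, mem_fix]
  have hfixconj : ∀ (K : Subgroup H) (h : H) (v : V), v ∈ fixK K →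
      h • v ∈ fixK (K.map (MulAut.conj h).toMonoidHom) := by
    intro K h v hv
    rw [hmemfix]
    rintro _ ⟨k, hk, rfl⟩
    change (h * k * h⁻¹) • h • v = h • v
    rw [← mul_smul, inv_mul_cancel_right, mul_smul, (hmemfix K v).mp hv k hk]
  have hfixN : fixK N = ⊥ := by
    have hinv : ∀ h : H, ∀ u ∈ fixK N, h • u ∈ fixK N := by
      intro h u hu
      rw [hmemfix]
      intro k hk
      have := (hmemfix N u).mp hu (h⁻¹ * k * h) (by simpa using hNn.conj_mem k hk h⁻¹)
      rw [← mul_smul, show k * h = h * (h⁻¹ * k * h) by group, mul_smul, this]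
    rcases hirr (fixK N) hinv with e | e
    · exact e
    · exfalso
      have : N = ⊥ := eq_bot_iff.mpr fun k hk => Subgroup.mem_bot.mpr
        (hfaith k fun v => (hmemfix N v).mp (e.ge (Subgroup.mem_top v)) k hk)
      rw [this, Subgroup.card_bot] at hNcard
      exact hNcard hp.out.one_lt.le
  -- a maximal subgroup with fixed points
  obtain ⟨K, ⟨hKN, hK0⟩, hKmax⟩ := (Set.toFinite {K : Subgroup H | K ≤ N ∧ fixK K ≠ ⊥}).exists_maximal
    ⟨⊥, bot_le, fun e => by
      have htop : fixK ⊥ = ⊤ := (Subgroup.eq_top_iff' _).mpr fun v => (hmemfix _ v).mpr fun k hk => by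
        rw [Subgroup.mem_bot.mp hk, one_smul]
      exact top_ne_bot (htop.symm.trans e)⟩
  have hKne : K ≠ ⊥ := by
    intro e
    have hfree : ∀ x : N, x ≠ 1 → ∀ v : V, (x : H) • v = v → v = 1 := by
      intro x hx v hv
      by_contra hv1
      refine hx (Subtype.ext (Subgroup.mem_bot.mp ?_))
      have hle := hKmax (y := Subgroup.zpowers (x : H)) ⟨Subgroup.zpowers_le.mpr x.2, fun e' => hv1
        (Subgroup.mem_bot.mp (e'.le ((hmemfix _ v).mpr fun k hk => smul_eq_self_of_mem_zpowers hv hk)))⟩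
        (e ▸ bot_le)
      exact e ▸ hle (Subgroup.mem_zpowers (x : H))
    obtain ⟨b, hb1⟩ : ∃ b : N, b ≠ 1 := by
      have : 1 < Nat.card N := lt_trans hp.out.one_lt (not_le.mp hNcard)
      haveI := Finite.one_lt_card_iff_nontrivial.mp this
      exact exists_ne 1
    have hord : ∀ x : N, x ≠ 1 → orderOf x = p := fun x hx =>
      orderOf_eq_prime (Subtype.ext (hNe x x.2)) hx
    refine hNcard ?_
    rw [← hord b hb1, ← Nat.card_zpowers b, ← Subgroup.card_top (G := N)]
    refine Subgroup.card_le_of_le fun x _ => ?_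
    by_cases hx : x = 1
    · rw [hx]; exact one_mem _
    exact H21.mem_zpowers_of_commute ((MulDistribMulAction.toMulAut H V).comp N.subtype)
      (fun e he v hv => hfree e he v hv) (hord x hx) (hord b hb1) (Subtype.ext (hNc x x.2 b b.2))
  let C0 : H → Subgroup H := fun h => K.map (MulAut.conj h).toMonoidHom
  have hC0mul : ∀ g h, (C0 h).map (MulAut.conj g).toMonoidHom = C0 (g * h) := fun g h => by
    simp only [C0, Subgroup.map_map]
    congr 1
    ext x
    simp [mul_assoc]
  have hC01 : C0 1 = K := by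
    have : (MulAut.conj (1 : H)).toMonoidHom = MonoidHom.id H := by ext x; simp
    simp only [C0, this, Subgroup.map_id]
  have hC0N : ∀ h, C0 h ≤ N := by
    rintro h _ ⟨k, hk, rfl⟩
    exact hNn.conj_mem k (hKN hk) h
  have hC0max : ∀ h (M : Subgroup H), M ≤ N → C0 h ≤ M → fixK M ≠ ⊥ → M = C0 h := by
    intro h M hM hle hfix
    have hM' : M.map (MulAut.conj h⁻¹).toMonoidHom ≤ N := by
      rintro _ ⟨m, hm, rfl⟩
      exact hNn.conj_mem m (hM hm) _
    have hKM : K ≤ M.map (MulAut.conj h⁻¹).toMonoidHom := by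
      have := Subgroup.map_mono (f := (MulAut.conj h⁻¹).toMonoidHom) hle
      rwa [hC0mul, inv_mul_cancel, hC01] at this
    have hne' : fixK (M.map (MulAut.conj h⁻¹).toMonoidHom) ≠ ⊥ := fun e => by
      obtain ⟨v, hv, hv1⟩ : ∃ v ∈ fixK M, v ≠ 1 := by
        by_contra hc
        simp only [not_exists, not_and, not_not] at hc
        exact hfix (eq_bot_iff.mpr fun v hv => Subgroup.mem_bot.mpr (hc v hv))
      exact hv1 (inv_smul_eq_iff.mp (Subgroup.mem_bot.mp (e.le (hfixconj M h⁻¹ v hv)))|>.trans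
        (smul_one h))
    have heq : M.map (MulAut.conj h⁻¹).toMonoidHom = K :=
      le_antisymm (hKmax (y := M.map (MulAut.conj h⁻¹).toMonoidHom) ⟨hM', hne'⟩ hKM) hKM
    refine le_antisymm (fun m hm => ?_) hle
    have h' : (MulAut.conj h⁻¹) m ∈ K := heq.le ⟨m, hm, rfl⟩
    exact ⟨(MulAut.conj h⁻¹) m, h', by simp [mul_assoc]⟩
  let Ω := Set.range C0
  haveI : Fintype Ω := Fintype.ofFinite _
  -- the projections
  have hinv : ∀ M : Subgroup H, M ≤ N → ∀ k ∈ N, ∀ u ∈ fixK M, k • u ∈ fixK M := by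
    intro M hM k hk u hu
    rw [hmemfix]
    intro m hm
    rw [← mul_smul, hNc m (hM hm) k hk, mul_smul, (hmemfix M u).mp hu m hm]
  letI fs : ∀ M : Subgroup H, Fintype M := fun M => Fintype.ofFinite M
  let e : Subgroup H → V →* V := fun M =>
    { toFun := fun v => ∏ k : M, (k : H) • v
      map_one' := Finset.prod_eq_one fun k _ => smul_one _
      map_mul' := fun u v => by simp only [smul_mul', Finset.prod_mul_distrib] }
  have he_self : ∀ M v, v ∈ fixK M → e M v = v ^ Nat.card M := by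
    intro M v hv
    change ∏ k : M, (k : H) • v = _
    rw [Finset.prod_congr rfl fun (k : M) _ => (hmemfix M v).mp hv (k : H) k.2, Finset.prod_const, Finset.card_univ,
      Nat.card_eq_fintype_card]
  have he_mem : ∀ M v, e M v ∈ fixK M := by
    intro M v
    rw [hmemfix]
    intro m hm
    change m • ∏ k : M, (k : H) • v = ∏ k : M, (k : H) • v
    rw [Finset.smul_prod']
    exact Fintype.prod_equiv (Equiv.mulLeft ⟨m, hm⟩) _ _ fun k => by simp [mul_smul]
  have he_pres : ∀ M M' v, M ≤ N → M' ≤ N → v ∈ fixK M' → e M v ∈ fixK M' := by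
    intro M M' v hM hM' hv
    change ∏ k : M, (k : H) • v ∈ _
    exact prod_mem fun k _ => hinv M' hM' k (hM k.2) v hv
  have he_conj : ∀ (M : Subgroup H) g v, e (M.map (MulAut.conj g).toMonoidHom) (g • v) = g • e M v := by
    intro M g v
    change ∏ k : M.map (MulAut.conj g).toMonoidHom, (k : H) • (g • v) = g • ∏ k : M, (k : H) • v
    rw [Finset.smul_prod']
    refine (Fintype.prod_equiv (M.equivMapOfInjective (MulAut.conj g).toMonoidHom (MulAut.conj g).injective).toEquiv
      _ _ fun k => ?_).symm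
    change g • (k : H) • v = (g * (k : H) * g⁻¹) • g • v
    rw [← mul_smul, ← mul_smul, inv_mul_cancel_right]
  have he_other : ∀ ω ω' : Ω, ω ≠ ω' → ∀ v ∈ fixK (ω' : Subgroup H), e ω v = 1 := by
    rintro ⟨_, g, rfl⟩ ⟨_, g', rfl⟩ hne v hv
    have hmem : e (C0 g) v ∈ fixK (C0 g ⊔ C0 g') := by
      rw [hmemfix]
      intro k hk
      have hle : C0 g ⊔ C0 g' ≤ MulAction.stabilizer H (e (C0 g) v) := sup_le
        (fun k hk => (hmemfix _ _).mp (he_mem (C0 g) v) k hk)
        (fun k hk => (hmemfix _ _).mp (he_pres _ _ v (hC0N g) (hC0N g') hv) k hk)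
      exact hle hk
    by_contra hne1
    have hM : fixK (C0 g ⊔ C0 g') ≠ ⊥ := fun e' => hne1 (Subgroup.mem_bot.mp (e'.le hmem))
    refine hne (Subtype.ext ?_)
    have h1 := hC0max g _ (sup_le (hC0N g) (hC0N g')) le_sup_left hM
    have h2 := hC0max g' _ (sup_le (hC0N g) (hC0N g')) le_sup_right hM
    exact h1.symm.trans h2
  have hKcop : ∀ g, (Nat.card V).Coprime (Nat.card (C0 g)) := by
    intro g
    obtain ⟨k, hk⟩ := IsPGroup.iff_card.mp (hP.to_le ((hC0N g).trans hNP))
    rw [hk]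
    exact hcop.pow_right k
  have hpow_inj : ∀ g (u w : V), u ^ Nat.card (C0 g) = w ^ Nat.card (C0 g) → u = w := fun g u w h =>
    (powCoprime (G := V) (hKcop g)).injective h
  -- the spanned subgroup is everything
  have hspan : ∀ U : Subgroup V, (∀ h : H, ∀ u ∈ U, h • u ∈ U) → U ≠ ⊥ → U = ⊤ := fun U hU hU0 =>
    (hirr U hU).resolve_left hU0
  -- choice of representatives
  have hrep : ∀ ω : Ω, ∃ g, C0 g = ω := fun ω => ω.2
  choose rep hrep using hrep
  -- vectors with given coordinates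
  have hcoord : ∀ w : Ω → V, (∀ ω : Ω, w ω ∈ fixK ω) → ∀ ω : Ω,
      e ω (∏ ω', w ω') = w ω ^ Nat.card (ω : Subgroup H) := by
    intro w hw ω
    rw [map_prod, Finset.prod_eq_single ω]
    · exact he_self _ _ (hw ω)
    · exact fun ω' _ hne => he_other ω ω' (Ne.symm hne) _ (hw ω')
    · simp
  have hinjw : ∀ (w : Ω → V), (∀ ω : Ω, w ω ∈ fixK ω) → ∀ g, g • (∏ ω', w ω') = ∏ ω', w ω' →
      ∀ ω ω' : Ω, (ω : Subgroup H).map (MulAut.conj g).toMonoidHom = ω' → w ω' = g • w ω := by
    intro w hw g hfix ω ω' hωω'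
    have h1 := hcoord w hw ω'
    rw [← hωω'] at h1
    conv_lhs at h1 => rw [← hfix]
    rw [he_conj, hcoord w hw ω, smul_pow'] at h1
    rw [Subgroup.card_map_of_injective (MulAut.conj g).injective] at h1
    obtain ⟨g0, hg0⟩ := ω.2
    rw [← hg0] at h1
    exact (hpow_inj g0 _ _ h1).symm
  -- permutation action on the components
  letI : MulAction H Ω :=
    { smul := fun g ω => ⟨(ω : Subgroup H).map (MulAut.conj g).toMonoidHom,
        g * rep ω, by rw [← hC0mul, hrep]⟩
      one_smul := fun ω => Subtype.ext (by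
        change (ω : Subgroup H).map (MulAut.conj (1 : H)).toMonoidHom = ω
        rw [← hrep ω, hC0mul, one_mul])
      mul_smul := fun g h ω => Subtype.ext (by
        change (ω : Subgroup H).map (MulAut.conj (g * h)).toMonoidHom =
          ((ω : Subgroup H).map (MulAut.conj h).toMonoidHom).map (MulAut.conj g).toMonoidHom
        rw [← hrep ω, hC0mul, hC0mul, hC0mul, mul_assoc]) }
  have hsmul : ∀ (g : H) (ω : Ω), ((g • ω : Ω) : Subgroup H) =
      (ω : Subgroup H).map (MulAut.conj g).toMonoidHom := fun g ω => rfl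
  let π : H →* Equiv.Perm Ω := MulAction.toPermHom H Ω
  obtain ⟨w1, hw1, hw1ne⟩ : ∃ w ∈ fixK K, w ≠ 1 := by
    by_contra hc
    simp only [not_exists, not_and, not_not] at hc
    exact hK0 (eq_bot_iff.mpr fun v hv => Subgroup.mem_bot.mpr (hc v hv))
  have hmemω : ∀ (ω : Ω) u, u ∈ fixK K → rep ω • u ∈ fixK ω := fun ω u hu => by
    have := hfixconj K (rep ω) u hu
    rwa [show K.map (MulAut.conj (rep ω)).toMonoidHom = C0 (rep ω) from rfl, hrep] at this
  by_cases hperm : π a ≠ 1
  · -- some components move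
    obtain ⟨S, hS⟩ := exists_regular_subset hp2 _ Ω rfl (P.map π) (hP.map π)
    let w : Ω → V := fun ω => if ω ∈ S then rep ω • w1 else 1
    have hw : ∀ ω : Ω, w ω ∈ fixK ω := fun ω => by
      simp only [w]; split
      · exact hmemω ω w1 hw1
      · exact one_mem _
    refine ⟨∏ ω, w ω, fun h hfix => ?_⟩
    have h1 : π (h * a * h⁻¹) = 1 := hS _ ⟨_, (hclass h).1, rfl⟩ fun ω hω => by
      by_contra hn'
      have := hinjw w hw _ hfix ω ((h * a * h⁻¹) • ω) (hsmul _ ω).symm
      rw [show w ω = rep ω • w1 from if_pos hω,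
        show w ((h * a * h⁻¹) • ω) = 1 from if_neg hn'] at this
      refine hw1ne (MulAction.injective (rep ω) (MulAction.injective (h * a * h⁻¹) ?_))
      simp only [smul_one]
      exact this.symm
    rw [map_mul, map_mul, map_inv, conj_eq_one_iff] at h1
    exact hperm h1
  rw [not_not] at hperm
  -- all components fixed
  have hfixa : ∀ (h : H) (ω : Ω), (h * a * h⁻¹) • ω = ω := fun h ω => by
    have : π (h * a * h⁻¹) = 1 := by rw [map_mul, map_mul, map_inv, hperm, mul_one, mul_inv_cancel]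
    exact Equiv.congr_fun this ω
  obtain ⟨ω0, u0, hu0, hmoved⟩ : ∃ ω : Ω, ∃ u ∈ fixK ω, a • u ≠ u := by
    by_contra hc
    simp only [not_exists, not_and, not_not] at hc
    let U : Subgroup V := ⨆ ω : Ω, fixK (ω : Subgroup H)
    have hU : U = ⊤ := hspan U (fun h u hu => by
      have hle : U ≤ U.comap (MulDistribMulAction.toMonoidHom V h) := iSup_le fun ω u hu =>
        Subgroup.mem_iSup_of_mem (h • ω) (by rw [hsmul]; exact hfixconj _ h u hu)
      exact hle hu) fun e => by
      have hKU : fixK K ≤ U := le_iSup_of_le (⟨K, 1, hC01⟩ : Ω) le_rfl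
      exact hK0 (eq_bot_iff.mpr (hKU.trans e.le))
    have hle : U ≤ fix a := iSup_le fun ω u hu => hc ω u hu
    exact ha1 (hfaith a fun v => hle (hU.ge (Subgroup.mem_top v)))
  -- the component
  set g0 := rep ω0
  let W : Subgroup V := fixK K
  let L : Subgroup H :=
    { carrier := {h | K.map (MulAut.conj h).toMonoidHom = K}
      one_mem' := hC01
      mul_mem' := fun {g h} (hg : C0 g = K) (hh : C0 h = K) => by
        change C0 (g * h) = K
        rw [← hC0mul, hh]; exact hg
      inv_mem' := fun {g} (hg : C0 g = K) => by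
        change C0 g⁻¹ = K
        have := hC0mul g⁻¹ g
        rwa [hg, inv_mul_cancel, hC01] at this }
  have hLW : ∀ h ∈ L, ∀ u ∈ W, h • u ∈ W := fun h hh u hu => by
    have := hfixconj K h u hu
    rwa [show K.map (MulAut.conj h).toMonoidHom = K from hh] at this
  let act : L →* MulAut W :=
    { toFun := fun h =>
        { toFun := fun u => ⟨(h : H) • (u : V), hLW h h.2 u u.2⟩
          invFun := fun u => ⟨(h : H)⁻¹ • (u : V), hLW _ (L.inv_mem h.2) u u.2⟩
          left_inv := fun u => Subtype.ext (inv_smul_smul (h : H) (u : V))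
          right_inv := fun u => Subtype.ext (smul_inv_smul (h : H) (u : V))
          map_mul' := fun u u' => Subtype.ext (smul_mul' (h : H) (u : V) (u' : V)) }
      map_one' := MulEquiv.ext fun u => Subtype.ext (one_smul H (u : V))
      map_mul' := fun g h => MulEquiv.ext fun u => Subtype.ext (mul_smul (g : H) (h : H) (u : V)) }
  have hact : ∀ (h : L) (u : W), ((act h u : W) : V) = (h : H) • (u : V) := fun h u => rfl
  haveI : Finite (MulAut W) := Finite.of_injective (fun e : MulAut W => (e : W → W))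
    DFunLike.coe_injective
  set τ := g0⁻¹ * a * g0
  have hτL : τ ∈ L := by
    have h1 := congrArg (Subtype.val) (hfixa 1 ω0)
    rw [hsmul, one_mul, inv_one, mul_one, ← hrep ω0, hC0mul] at h1
    change C0 (g0⁻¹ * a * g0) = K
    rw [mul_assoc, ← hC0mul, h1, hC0mul, inv_mul_cancel, hC01]
  have hWne : W ≠ ⊥ := hK0
  have hWtop : Nat.card W < n := by
    rw [← hn, ← Subgroup.card_top (G := V)]
    refine lt_of_le_of_ne (Subgroup.card_le_of_le le_top) fun e => hKne (eq_bot_iff.mpr fun k hk => ?_)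
    have hWt : W = ⊤ := Subgroup.eq_of_le_of_card_ge le_top e.ge
    exact Subgroup.mem_bot.mpr (hfaith k fun v => (hmemfix K v).mp (hWt.ge (Subgroup.mem_top v)) k hk)
  haveI : (P.subgroupOf L).Normal := inferInstance
  obtain ⟨w, hw⟩ := ih _ hWtop W act.range rfl (hcop.coprime_dvd_left (Subgroup.card_subgroup_dvd_card W))
    (fun g hg => Subtype.ext (MulEquiv.ext hg))
    (fun U hU => by
      by_cases hU0 : U = ⊥
      · exact Or.inl hU0
      refine Or.inr ((Subgroup.eq_top_iff' U).mpr fun u => ?_)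
      set U' := U.map W.subtype
      let T : Subgroup V := ⨆ h : H, U'.map (MulDistribMulAction.toMonoidHom V h)
      have hTtop : T = ⊤ := hspan T (fun h x hx => by
        have hle : T ≤ T.comap (MulDistribMulAction.toMonoidHom V h) := iSup_le fun g x hx => by
          obtain ⟨y, hy, rfl⟩ := hx
          exact Subgroup.mem_iSup_of_mem (h * g) ⟨y, hy, mul_smul h g y⟩
        exact hle hx) fun e => hU0 (eq_bot_iff.mpr fun x hx => Subgroup.mem_bot.mpr (Subtype.ext (by
          have h1 : (x : V) ∈ T := Subgroup.mem_iSup_of_mem 1 ⟨x, ⟨x, hx, rfl⟩, one_smul H _⟩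
          rw [e, Subgroup.mem_bot] at h1
          exact h1)))
      have hle : T ≤ U'.comap (e K) := iSup_le fun g x hx => by
        obtain ⟨_, ⟨y, hy, rfl⟩, rfl⟩ := hx
        change e K (g • (y : V)) ∈ U'
        by_cases hg : C0 g = K
        · have hmem : g • (y : V) ∈ fixK K := hLW g hg _ y.2
          rw [he_self _ _ hmem]
          exact pow_mem (show g • (y : V) ∈ U' from ⟨act ⟨g, hg⟩ y, hU ⟨_, ⟨⟨g, hg⟩, rfl⟩⟩ y hy, rfl⟩) _
        · rw [show e K (g • (y : V)) = 1 from he_other ⟨K, 1, hC01⟩ ⟨C0 g, g, rfl⟩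
            (fun e' => hg (congrArg Subtype.val e').symm) _ (hfixconj K g _ y.2)]
          exact one_mem _
      have hu := hle (hTtop.ge (Subgroup.mem_top (u : V)))
      rw [Subgroup.mem_comap, he_self _ _ u.2] at hu
      obtain ⟨u', hu', e'⟩ := hu
      have hcW : (Nat.card W).Coprime (Nat.card K) := by
        rw [← hC01]; exact (hKcop 1).coprime_dvd_left (Subgroup.card_subgroup_dvd_card W)
      obtain ⟨t, ht⟩ := exists_pow_eq_self_of_coprime (x := u) (n := Nat.card K)
        (Nat.Coprime.coprime_dvd_right (orderOf_dvd_natCard u) hcW.symm)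
      rw [← ht, show u ^ Nat.card K = u' from Subtype.ext e'.symm]
      exact pow_mem hu' t)
    ((P.subgroupOf L).map act.rangeRestrict) (Subgroup.Normal.map inferInstance _ act.rangeRestrict_surjective)
    ((hP.comap_subtype).map act.rangeRestrict) (act.rangeRestrict ⟨τ, hτL⟩)
    ⟨⟨τ, hτL⟩, by simpa [τ, Subgroup.mem_subgroupOf] using hPn.conj_mem a haP g0⁻¹, rfl⟩
    (by rw [← map_pow, show (⟨τ, hτL⟩ : L) ^ p = 1 from Subtype.ext (by
      change (g0⁻¹ * a * g0) ^ p = 1
      have := (hclass g0⁻¹).2.1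
      rwa [inv_inv] at this), map_one])
    (fun e1 => hmoved (by
      have h1 : g0⁻¹ • u0 ∈ W := by
        have := hfixconj _ g0⁻¹ u0 hu0
        rwa [← hrep ω0, hC0mul, inv_mul_cancel, hC01] at this
      have h2 := congrArg Subtype.val (MulEquiv.congr_fun (congrArg Subtype.val e1) ⟨_, h1⟩)
      change (g0⁻¹ * a * g0) • g0⁻¹ • u0 = g0⁻¹ • u0 at h2
      rwa [← mul_smul, mul_inv_cancel_right, mul_smul, smul_left_cancel_iff] at h2))
  let wv : Ω → V := fun ω => rep ω • (w : V)
  have hwv : ∀ ω : Ω, wv ω ∈ fixK ω := fun ω => hmemω ω w w.2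
  refine ⟨∏ ω, wv ω, fun h hfix => ?_⟩
  have hfixω := hinjw wv hwv _ hfix (h • ω0) (h • ω0)
    ((hsmul _ _).symm.trans (congrArg Subtype.val (hfixa h _)))
  set ω := h • ω0
  have hl : (rep ω)⁻¹ * (h * g0) ∈ L := by
    change C0 ((rep ω)⁻¹ * (h * g0)) = K
    have e1 : C0 (h * g0) = (ω : Subgroup H) := by rw [← hC0mul, hrep]; exact (hsmul h ω0).symm
    rw [← hC0mul, e1, ← hrep ω, hC0mul, inv_mul_cancel, hC01]
  refine hw (act.rangeRestrict ⟨_, hl⟩) (Subtype.ext ?_)
  rw [← map_inv, ← map_mul, ← map_mul]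
  change ((rep ω)⁻¹ * (h * g0) * τ * ((rep ω)⁻¹ * (h * g0))⁻¹) • (w : V) = w
  rw [show (rep ω)⁻¹ * (h * g0) * τ * ((rep ω)⁻¹ * (h * g0))⁻¹ =
    (rep ω)⁻¹ * (h * a * h⁻¹) * rep ω by simp only [τ]; group, mul_smul, mul_smul, ← hfixω,
    inv_smul_smul]

end Cfsg.Agent.H90.Avoid
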