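import Cfsg.Agent.H90.Avoid.Count
import Cfsg.Agent.H24.SmallRank
import Cfsg.Agent.H83.Basic

/-! The case in which the normal `p`-subgroup has no large normal elementary abelian subgroup. -/

set_option autoImplicit false
open scoped commutatorElement

namespace Cfsg.Agent.H90.Avoid

variable {H : Type*} [Group H] [Finite H] {V : Type*} [CommGroup V] [Finite V] [Nontrivial V]
  [MulDistribMulAction H V] {p : ℕ} [hp : Fact p.Prime]

/-- A normal subgroup of order `p ^ 2` is in the second centre. -/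
theorem le_ucs_two {P : Type*} [Group P] [Finite P] (hP : IsPGroup p P) {A : Subgroup P} [A.Normal]
    (hA : Nat.card A = p ^ 2) : A ≤ Subgroup.upperCentralSeries P 2 := by
  set π := QuotientGroup.mk' (Subgroup.center P)
  have hAne : A ≠ ⊥ := fun e => by
    rw [e, Subgroup.card_bot] at hA
    exact absurd hA.symm (Nat.one_lt_pow two_ne_zero hp.out.one_lt).ne'
  haveI : (A.map π).Normal := Subgroup.Normal.map inferInstance _ (QuotientGroup.mk'_surjective _)
  have hcard : Nat.card (A.map π) ≤ p := by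
    obtain ⟨k, hk⟩ := H24.exists_card_pow (hP.to_quotient (Subgroup.center P)) (A.map π)
    rcases Nat.lt_or_ge k 2 with h | h
    · rw [hk]; exact (Nat.pow_le_pow_right hp.out.pos (by omega : k ≤ 1)).trans (pow_one p).le
    exfalso
    obtain ⟨z, hzA, hzc, hzo⟩ := H24.exists_central_orderOf hP (N := A) hAne
    let f := π.subgroupMap A
    have hker : f.ker ≠ ⊥ := fun e => by
      have : (⟨z, hzA⟩ : A) ∈ f.ker := Subtype.ext ((QuotientGroup.eq_one_iff z).mpr hzc)
      rw [e, Subgroup.mem_bot] at this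
      rw [show z = 1 from congrArg Subtype.val this, orderOf_one] at hzo
      exact hp.out.ne_one hzo.symm
    have h1 := f.ker.index_mul_card
    rw [Subgroup.index_ker, MonoidHom.range_eq_top.mpr (π.subgroupMap_surjective A), Subgroup.card_top,
      hk, hA] at h1
    have h2 : 1 < Nat.card f.ker := Finite.one_lt_card_iff_nontrivial.mpr
      ((Subgroup.nontrivial_iff_ne_bot _).mpr hker)
    have h3 : p ^ 2 ≤ p ^ k := Nat.pow_le_pow_right hp.out.pos h
    nlinarith [Nat.pow_pos (n := 2) hp.out.pos]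
  intro a ha
  rw [Subgroup.mem_upperCentralSeries_succ_iff]
  intro y
  rw [Subgroup.upperCentralSeries_one]
  have hcen : π a ∈ Subgroup.center (P ⧸ Subgroup.center P) := by
    by_cases hbot : A.map π = ⊥
    · have : π a ∈ A.map π := ⟨a, ha, rfl⟩
      rw [hbot, Subgroup.mem_bot] at this
      rw [this]; exact one_mem _
    obtain ⟨w, hw, hwc, hwo⟩ := H24.exists_central_orderOf (hP.to_quotient _) (N := A.map π) hbot
    have he : Subgroup.zpowers w = A.map π := Subgroup.eq_of_le_of_card_ge (Subgroup.zpowers_le.mpr hw)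
      (by rw [Nat.card_zpowers, hwo]; exact hcard)
    exact Subgroup.zpowers_le.mpr hwc (he.ge ⟨a, ha, rfl⟩)
  rw [← QuotientGroup.eq_one_iff, commutatorElement_def, QuotientGroup.mk_mul, QuotientGroup.mk_mul,
    QuotientGroup.mk_mul, QuotientGroup.mk_inv, QuotientGroup.mk_inv]
  have := Subgroup.mem_center_iff.mp hcen (QuotientGroup.mk y)
  change (QuotientGroup.mk y : P ⧸ _) * QuotientGroup.mk a = QuotientGroup.mk a * QuotientGroup.mk y at this
  rw [← this, mul_inv_cancel_right, mul_inv_cancel]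

/-- The primitive case. -/
theorem exists_moved_primitive (hp2 : p ≠ 2) {P : Subgroup H} [P.Normal] (hP : IsPGroup p P)
    (hne : P ≠ ⊥) (hcop : (Nat.card V).Coprime p)
    (hfaith : ∀ g : H, (∀ v : V, g • v = v) → g = 1)
    (hirr : ∀ U : Subgroup V, (∀ h : H, ∀ u ∈ U, h • u ∈ U) → U = ⊥ ∨ U = ⊤)
    (hel : ∀ N : Subgroup H, N ≤ P → N.Normal → (∀ a ∈ N, ∀ b ∈ N, a * b = b * a) →
      (∀ a ∈ N, a ^ p = 1) → Nat.card N ≤ p) :
    ∃ v : V, ∀ a ∈ P, a ^ p = 1 → a ≠ 1 → a • v ≠ v := by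
  haveI := (Subgroup.nontrivial_iff_ne_bot P).mpr hne
  obtain ⟨z0, -, hz0c, hz0o⟩ := H24.exists_central_orderOf hP (N := (⊤ : Subgroup P)) top_ne_bot
  set z : H := (z0 : H) with hzdef
  have hzo : orderOf z = p := by rw [hzdef, Subgroup.orderOf_coe, hz0o]
  have hzp : z ^ p = 1 := by rw [← hzo]; exact pow_orderOf_eq_one z
  have hz1 : z ≠ 1 := fun e => hp.out.ne_one (by rw [← hzo, e, orderOf_one])
  have hzP : z ∈ P := z0.2
  have hzc : ∀ x ∈ P, x * z = z * x := fun x hx =>
    congrArg Subtype.val (Subgroup.mem_center_iff.mp hz0c ⟨x, hx⟩)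
  have hnorm : ∀ C : Subgroup P, C.Characteristic → (C.map P.subtype).Normal := fun C hC =>
    ⟨fun n hn g => by
      have hg : g ∈ Subgroup.normalizer (P : Set H) := by
        rw [Subgroup.normalizer_eq_top]; exact Subgroup.mem_top g
      exact conj_mem' (H83.normalizer_le_map_char P C hC hg) hn⟩
  -- `Ω₁` of the centre
  let Zs : Subgroup H :=
    { carrier := {x | x ∈ (Subgroup.center P).map P.subtype ∧ x ^ p = 1}
      one_mem' := ⟨one_mem _, one_pow p⟩
      mul_mem' := fun {a b} ha hb => ⟨mul_mem ha.1 hb.1, by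
        obtain ⟨a', ha', rfl⟩ := ha.1
        obtain ⟨b', hb', rfl⟩ := hb.1
        have hc : Commute (P.subtype a') (P.subtype b') :=
          (show Commute a' b' from (Subgroup.mem_center_iff.mp hb' a')).map P.subtype
        rw [hc.mul_pow, ha.2, hb.2, one_mul]⟩
      inv_mem' := fun {a} ha => ⟨inv_mem ha.1, by rw [inv_pow, ha.2, inv_one]⟩ }
  haveI hCPn := hnorm (Subgroup.center P) inferInstance
  haveI hZsn : Zs.Normal :=
    ⟨fun x hx g => ⟨hCPn.conj_mem x hx.1 g, by rw [conj_pow, hx.2, mul_one, mul_inv_cancel]⟩⟩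
  have hzZs : z ∈ Zs := ⟨⟨z0, hz0c, rfl⟩, hzp⟩
  have hcomZs : ∀ x ∈ Zs, ∀ y ∈ P, y * x = x * y := by
    rintro x ⟨⟨x', hx', rfl⟩, -⟩ y hy
    exact congrArg Subtype.val (Subgroup.mem_center_iff.mp hx' ⟨y, hy⟩)
  have hZsP : Zs ≤ P := by rintro x ⟨⟨x', -, rfl⟩, -⟩; exact x'.2
  have hZs : Zs = Subgroup.zpowers z := (Subgroup.eq_of_le_of_card_ge (Subgroup.zpowers_le.mpr hzZs) (by
    rw [Nat.card_zpowers, hzo]
    exact hel Zs hZsP hZsn (fun a ha b hb => (hcomZs b hb a (hZsP ha))) fun a ha => ha.2)).symm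
  -- `Ω₁` of the second centre
  set U := Subgroup.upperCentralSeries P 2 with hU
  have hUc : ∀ u ∈ U, ∀ x : P, ⁅u, x⁆ ∈ Subgroup.center P := fun u hu x => by
    have := (Subgroup.mem_upperCentralSeries_succ_iff (n := 1)).mp hu x
    rwa [Subgroup.upperCentralSeries_one] at this
  let D : Subgroup H :=
    { carrier := {x | x ∈ U.map P.subtype ∧ x ^ p = 1}
      one_mem' := ⟨one_mem _, one_pow p⟩
      mul_mem' := fun {a b} ha hb => ⟨mul_mem ha.1 hb.1, by
        obtain ⟨a', ha', rfl⟩ := ha.1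
        obtain ⟨b', hb', rfl⟩ := hb.1
        rw [← map_mul, ← map_pow, H24.mul_pow_eq_one_of_class_two hp.out hp2 (hUc b' hb' a')
          (Subtype.ext (by simpa using ha.2)) (Subtype.ext (by simpa using hb.2)), map_one]⟩
      inv_mem' := fun {a} ha => ⟨inv_mem ha.1, by rw [inv_pow, ha.2, inv_one]⟩ }
  haveI hUn := hnorm U inferInstance
  haveI hDn : D.Normal :=
    ⟨fun x hx g => ⟨hUn.conj_mem x hx.1 g, by rw [conj_pow, hx.2, mul_one, mul_inv_cancel]⟩⟩
  have hDP : D ≤ P := by rintro x ⟨⟨x', -, rfl⟩, -⟩; exact x'.2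
  have hzD : z ∈ D := ⟨⟨z0, (Subgroup.mem_upperCentralSeries_succ_iff (n := 1)).mpr fun y => by
    rw [Subgroup.upperCentralSeries_one]
    have := Subgroup.mem_center_iff.mp hz0c y
    rw [commutatorElement_eq_one_iff_mul_comm.mpr this.symm]
    exact one_mem _, rfl⟩, hzp⟩
  have hact : ∀ x ∈ P, ∀ d ∈ D, ⁅x, d⁆ ∈ Subgroup.zpowers z := by
    rintro x hx d ⟨⟨d', hd', rfl⟩, hdp⟩
    have hc := hUc d' hd' ⟨x, hx⟩
    rw [← commutatorElement_inv]
    refine inv_mem (hZs.le ⟨⟨⁅d', ⟨x, hx⟩⁆, hc, by simp [commutatorElement_def]⟩, ?_⟩)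
    have h1 := congrArg P.subtype (H24.comm_pow_left hc p)
    rw [map_commutatorElement, map_pow, map_pow, hdp, commutatorElement_one_left,
      map_commutatorElement] at h1
    exact h1.symm
  let CD : Subgroup H := D ⊓ Subgroup.centralizer (D : Set H)
  have hCDn : CD.Normal := by
    haveI : (Subgroup.centralizer (D : Set H)).Normal := inferInstance
    infer_instance
  have hzCD : z ∈ CD := ⟨hzD, Subgroup.mem_centralizer_iff.mpr fun d hd => hzc d (hDP hd)⟩
  have hCD : CD = Subgroup.zpowers z := (Subgroup.eq_of_le_of_card_ge (Subgroup.zpowers_le.mpr hzCD) (by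
    rw [Nat.card_zpowers, hzo]
    exact hel CD (inf_le_left.trans hDP) hCDn
      (fun a ha b hb => Subgroup.mem_centralizer_iff.mp hb.2 a ha.1) fun a ha => ha.1.2)).symm
  have hTwo : IsTwo p z D := ⟨hzD, fun d hd => hzc d (hDP hd), fun d hd => hd.2,
    fun d hd e he => hact d (hDP hd) e he, fun d hd hcom => hCD.le
      ⟨hd, Subgroup.mem_centralizer_iff.mpr fun e he => (hcom e he).symm⟩⟩
  have hinner : ∀ x ∈ P, ∃ d ∈ D, d * x ∈ Subgroup.centralizer (D : Set H) := by
    intro x hx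
    obtain ⟨d, hd, hcom⟩ := exists_inner hz1 _ D rfl hTwo x ⟨hzc x hx, hact x hx⟩
    exact ⟨d, hd, Subgroup.mem_centralizer_iff.mpr fun e he => (hcom e he).symm⟩
  set C := P ⊓ Subgroup.centralizer (D : Set H) with hC
  -- the centraliser of `D` in `P` is cyclic
  have hcyc : IsCyclic C := by
    by_contra hnc
    obtain ⟨A, hAn, hAc, hAe, hAcard⟩ :=
      H24.exists_normal_elementary_two C p hp2 (hP.to_le inf_le_left) hnc
    set A' := A.map C.subtype
    have hA'C : A' ≤ C := Subgroup.map_subtype_le A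
    have hA'n : ∀ c ∈ C, ∀ a ∈ A', c * a * c⁻¹ ∈ A' := by
      rintro c hc _ ⟨a, ha, rfl⟩
      exact ⟨⟨c, hc⟩ * a * ⟨c, hc⟩⁻¹, hAn.conj_mem a ha _, rfl⟩
    haveI : (A'.subgroupOf P).Normal := ⟨fun a ha x => by
      obtain ⟨d, hd, hdx⟩ := hinner x x.2
      have hc : d * (x : H) ∈ C := ⟨P.mul_mem (hDP hd) x.2, hdx⟩
      have h1 := hA'n _ hc _ ha
      have hd' : d⁻¹ ∈ D := inv_mem hd
      have hcomm : d⁻¹ * (d * x * a * (d * x)⁻¹) = (d * x * a * (d * x)⁻¹) * d⁻¹ :=
        Subgroup.mem_centralizer_iff.mp (hA'C h1).2 _ hd'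
      rw [Subgroup.mem_subgroupOf, Subgroup.coe_mul, Subgroup.coe_mul, Subgroup.coe_inv]
      have : (x : H) * a * (x : H)⁻¹ = d⁻¹ * (d * x * a * (d * x)⁻¹) * d := by group
      rw [this, hcomm, inv_mul_cancel_right]
      exact h1⟩
    have hcard' : Nat.card (A'.subgroupOf P) = p ^ 2 := by
      rw [Nat.card_congr (Subgroup.subgroupOfEquivOfLe (hA'C.trans inf_le_left)).toEquiv,
        Subgroup.card_map_of_injective C.subtype_injective, hAcard]
    have hle : A' ≤ CD := by
      intro a ha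
      have haU : (⟨a, (hA'C ha).1⟩ : P) ∈ U := le_ucs_two hP hcard' (Subgroup.mem_subgroupOf.mpr ha)
      refine ⟨⟨⟨_, haU, rfl⟩, ?_⟩, (hA'C ha).2⟩
      obtain ⟨a', ha', rfl⟩ := ha
      exact congrArg Subtype.val (hAe a' ha')
    have := Subgroup.card_le_of_le (hle.trans hCD.le)
    rw [Subgroup.card_map_of_injective C.subtype_injective, hAcard, Nat.card_zpowers, hzo] at this
    exact absurd this (not_le.mpr (lt_self_pow₀ hp.out.one_lt one_lt_two))
  have hDall : ∀ a ∈ P, a ^ p = 1 → a ∈ D := by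
    intro a ha hap
    obtain ⟨d, hd, hdx⟩ := hinner a ha
    have hcC : d * a ∈ C := ⟨P.mul_mem (hDP hd) ha, hdx⟩
    have hcom : Commute d⁻¹ (d * a) := Subgroup.mem_centralizer_iff.mp hdx _ (inv_mem hd)
    have hcp : (d * a) ^ p = 1 := by
      have h1 : a ^ p = (d⁻¹ * (d * a)) ^ p := by rw [inv_mul_cancel_left]
      rw [hcom.mul_pow, inv_pow, hd.2, inv_one, one_mul, hap] at h1
      exact h1.symm
    haveI := hcyc
    letI : CommGroup C := IsCyclic.commGroup
    let O : Subgroup C :=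
      { carrier := {x | x ^ p = 1}
        one_mem' := one_pow p
        mul_mem' := fun {x y} (hx : x ^ p = 1) (hy : y ^ p = 1) =>
          show (x * y) ^ p = 1 by rw [mul_pow, hx, hy, one_mul]
        inv_mem' := fun {x} (hx : x ^ p = 1) => show x⁻¹ ^ p = 1 by rw [inv_pow, hx, inv_one] }
    have hzC : z ∈ C := ⟨hzP, Subgroup.mem_centralizer_iff.mpr fun e he => hzc e (hDP he)⟩
    have hzO : (⟨z, hzC⟩ : C) ∈ O := Subtype.ext hzp
    haveI : IsCyclic O := inferInstance
    have hOc : Nat.card O ∣ p := by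
      rw [← IsCyclic.exponent_eq_card]
      exact Monoid.exponent_dvd_iff_forall_pow_eq_one.mpr fun x => Subtype.ext x.2
    have hOz : Subgroup.zpowers (⟨z, hzC⟩ : C) = O :=
      Subgroup.eq_of_le_of_card_ge (Subgroup.zpowers_le.mpr hzO) (by
        rw [Nat.card_zpowers, ← Subgroup.orderOf_coe, hzo]; exact Nat.le_of_dvd hp.out.pos hOc)
    obtain ⟨i, hi⟩ := Subgroup.mem_zpowers_iff.mp (hOz.ge (Subtype.ext hcp : (⟨d * a, hcC⟩ : C) ∈ O))
    have hda : d * a ∈ D := by
      have e : z ^ i = d * a := congrArg Subtype.val hi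
      rw [← e]; exact zpow_mem hzD i
    simpa using mul_mem (inv_mem hd) hda
  have hzfix : ∀ v : V, z • v = v → v = 1 := by
    intro v hv
    have hinv : ∀ g : H, ∀ u ∈ (fix z : Subgroup V), g • u ∈ (fix z : Subgroup V) := by
      intro g u hu
      rw [mem_fix, ← mul_smul, show z * g = g * (g⁻¹ * z * g) by group, mul_smul]
      exact congrArg _ (smul_eq_self_of_mem_zpowers hu (hZs.le (by simpa using hZsn.conj_mem z hzZs g⁻¹)))
    rcases hirr (fix z) hinv with e | e
    · exact Subgroup.mem_bot.mp (e.le hv)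
    · exact absurd (hfaith z fun w => e.ge (Subgroup.mem_top w)) hz1
  obtain ⟨v, -, hv⟩ := exists_moved hTwo hp2 hzfix hz1 hcop
  exact ⟨v, fun a ha hap ha1 => hv a (hDall a ha hap) ha1⟩
where
  conj_mem' {K : Subgroup H} {g n : H} (hg : g ∈ Subgroup.normalizer (K : Set H)) (hn : n ∈ K) :
      g * n * g⁻¹ ∈ K := (Subgroup.mem_normalizer_iff.mp hg n).mp hn

end Cfsg.Agent.H90.Avoid
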